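import Cfsg.Agent.Lib.Core.Fitting
import Mathlib

/-!
A group of order `4030387200` with an element of order `8` and none of order `28, 35, 42, 49, 63, 119`:
definitions and elementary counting tools for the `7`-local analysis.
-/

set_option autoImplicit false

namespace Cfsg.Lib.SPO.He

open Subgroup
open scoped Pointwise

/-- The standing hypotheses. -/
structure Hy (S : Type*) [Group S] : Prop where
  card : Nat.card S = 4030387200
  n28 : ∀ g : S, ¬ 28 ∣ orderOf g
  n35 : ∀ g : S, ¬ 35 ∣ orderOf g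
  n42 : ∀ g : S, ¬ 42 ∣ orderOf g
  n49 : ∀ g : S, ¬ 49 ∣ orderOf g
  n63 : ∀ g : S, ¬ 63 ∣ orderOf g
  n119 : ∀ g : S, ¬ 119 ∣ orderOf g
  e8 : ∃ g : S, orderOf g = 8

variable {S : Type*} [Group S]

abbrev C (x : S) : Subgroup S := centralizer {x}
abbrev CS (A : Subgroup S) : Subgroup S := centralizer (A : Set S)
abbrev NS (A : Subgroup S) : Subgroup S := normalizer (A : Set S)
abbrev cj (g : S) (A : Subgroup S) : Subgroup S := MulAut.conj g • A

/-- `O_2(C(x))`. -/
def W (x : S) : Subgroup S := (pCore 2 (C x)).map (C x).subtype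

/-- The number of subgroups of order `q` between `A` and `B`. -/
noncomputable def cnt (q : ℕ) (A B : Subgroup S) : ℕ :=
  Nat.card {R : Subgroup S // A ≤ R ∧ R ≤ B ∧ Nat.card R = q}

/-- `x` is `7`-central. -/
def Cen (x : S) : Prop := 343 ∣ Nat.card (C x)

/-- `R` is a Sylow `7`-subgroup, of order `q`, of the centralizer of the element `w` of order `7`. -/
structure Sy (w : S) (q : ℕ) (R : Subgroup S) : Prop where
  ord : orderOf w = 7
  le : R ≤ C w
  card : Nat.card R = q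
  pw : q = 49 ∨ q = 343
  mx : ¬ 7 * q ∣ Nat.card (C w)

/-- `P` is non-abelian of order `343` and exponent `7`, with central element `z`. -/
structure NA (P : Subgroup S) (z : S) : Prop where
  card : Nat.card P = 343
  mem : z ∈ P
  ord : orderOf z = 7
  cen : P ≤ C z
  ex : ∀ x ∈ P, x ^ 7 = 1
  nab : ∃ a ∈ P, ∃ b ∈ P, a * b ≠ b * a

/-- The subgroups of order `49` of `P`. -/
noncomputable def DD [Finite S] (P : Subgroup S) : Finset (Subgroup S) :=
  (Set.toFinite {D : Subgroup S | D ≤ P ∧ Nat.card D = 49}).toFinset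

theorem mem_DD [Finite S] {P D : Subgroup S} : D ∈ DD P ↔ D ≤ P ∧ Nat.card D = 49 := by
  simp [DD]

/-- The elements of `D` outside `⟨z⟩`. -/
noncomputable def out [Finite S] (z : S) (D : Subgroup S) : Finset S :=
  (Set.toFinite {x : S | x ∈ D ∧ x ∉ zpowers z}).toFinset

theorem mem_out [Finite S] {z x : S} {D : Subgroup S} : x ∈ out z D ↔ x ∈ D ∧ x ∉ zpowers z := by
  simp [out]

/-- `D` is special: it has a `7`-central element outside `⟨z⟩`. -/
def Sp (z : S) (D : Subgroup S) : Prop := ∃ y ∈ D, y ∉ zpowers z ∧ Cen y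

noncomputable def rep (z : S) (D : Subgroup S) : S :=
  Classical.epsilon fun x => x ∈ D ∧ x ∉ zpowers z

noncomputable def ii (z : S) (D : Subgroup S) : ℕ := Nat.log 8 (cnt 343 D (C z))

noncomputable def kk (z : S) (D : Subgroup S) : ℕ :=
  Nat.log 8 (cnt 49 (zpowers (rep z D)) (C (rep z D)))

open Classical in
noncomputable def bb (x : S) : ℕ := cnt 343 (zpowers x) (if Cen x then C x else ⊤)

theorem mem_C {x g : S} : g ∈ C x ↔ x * g = g * x := by
  simp [mem_centralizer_iff]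

theorem mem_C' {x g : S} : g ∈ C x ↔ g * x * g⁻¹ = x := by
  rw [mem_C, mul_inv_eq_iff_eq_mul, eq_comm]

theorem mem_C_comm {x g : S} : g ∈ C x ↔ x ∈ C g := by
  rw [mem_C, mem_C, eq_comm]

theorem mem_cj {g y : S} {A : Subgroup S} : y ∈ cj g A ↔ g⁻¹ * y * g ∈ A := by
  rw [mem_pointwise_smul_iff_inv_smul_mem]
  simp [MulAut.smul_def]

theorem conj_mem_cj {g y : S} {A : Subgroup S} : g * y * g⁻¹ ∈ cj g A ↔ y ∈ A := by
  rw [mem_cj]; simp [mul_assoc]

theorem cj_mul (g h : S) (A : Subgroup S) : cj (g * h) A = cj g (cj h A) := by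
  simp only [cj, map_mul, mul_smul]

theorem cj_one (A : Subgroup S) : cj 1 A = A := by
  simp only [cj, map_one, one_smul]

theorem cj_inv_cj (g : S) (A : Subgroup S) : cj g⁻¹ (cj g A) = A := by
  rw [← cj_mul, inv_mul_cancel, cj_one]

theorem cj_cj_inv (g : S) (A : Subgroup S) : cj g (cj g⁻¹ A) = A := by
  rw [← cj_mul, mul_inv_cancel, cj_one]

theorem cj_le_cj {g : S} {A B : Subgroup S} : cj g A ≤ cj g B ↔ A ≤ B :=
  pointwise_smul_le_pointwise_smul_iff

theorem card_cj (g : S) (A : Subgroup S) : Nat.card (cj g A) = Nat.card A :=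
  (Nat.card_congr (equivSMul (MulAut.conj g) A).toEquiv).symm

theorem cj_eq_iff {g : S} {A : Subgroup S} : cj g A = A ↔ g ∈ NS A := by
  rw [mem_normalizer_iff'', SetLike.ext_iff]
  simp only [mem_cj]
  exact forall_congr' fun _ => iff_comm

theorem conj_mem {g y : S} {A : Subgroup S} (hg : g ∈ NS A) (hy : y ∈ A) : g * y * g⁻¹ ∈ A :=
  (mem_normalizer_iff.1 hg y).1 hy

theorem cj_C (g x : S) : cj g (C x) = C (g * x * g⁻¹) := by
  ext y
  rw [mem_cj, mem_C, mem_C]
  constructor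
  · intro h
    calc g * x * g⁻¹ * y = g * (x * (g⁻¹ * y * g)) * g⁻¹ := by group
      _ = y * (g * x * g⁻¹) := by rw [h]; group
  · intro h
    calc x * (g⁻¹ * y * g) = g⁻¹ * (g * x * g⁻¹ * y) * g := by group
      _ = g⁻¹ * y * g * x := by rw [h]; group

theorem cj_zp (g x : S) : cj g (zpowers x) = zpowers (g * x * g⁻¹) := by
  ext y
  rw [mem_cj, mem_zpowers_iff, mem_zpowers_iff]
  refine exists_congr fun k => ?_
  rw [conj_zpow]
  constructor
  · intro h; rw [h]; group
  · intro h; rw [← h]; group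

theorem cj_top (g : S) : cj g ⊤ = ⊤ := by ext; simp

theorem cj_bot (g : S) : cj g ⊥ = ⊥ := smul_bot _

theorem cj_inf (g : S) (A B : Subgroup S) : cj g (A ⊓ B) = cj g A ⊓ cj g B := by
  ext; simp [mem_cj]

theorem C_eq_of_zp {x y : S} (h : zpowers x = zpowers y) : C x = C y := by
  have key : ∀ {x y : S}, zpowers x = zpowers y → C x ≤ C y := by
    intro x y h g hg
    obtain ⟨k, rfl⟩ := mem_zpowers_iff.1 (h ▸ mem_zpowers y : y ∈ zpowers x)
    exact mem_C.2 (Commute.zpow_left (mem_C.1 hg) k)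
  exact le_antisymm (key h) (key h.symm)

theorem cnt_cj (g : S) (q : ℕ) (A B : Subgroup S) : cnt q (cj g A) (cj g B) = cnt q A B := by
  refine (Nat.card_congr ((MulAction.toPerm (MulAut.conj g)).subtypeEquiv fun R => ?_)).symm
  change _ ↔ cj g A ≤ cj g R ∧ cj g R ≤ cj g B ∧ Nat.card (cj g R) = q
  rw [cj_le_cj, cj_le_cj, card_cj]

theorem cen_conj (g x : S) : Cen (g * x * g⁻¹) ↔ Cen x := by
  rw [Cen, Cen, ← cj_C, card_cj]

theorem cen_of_zp {x y : S} (h : zpowers x = zpowers y) : Cen x ↔ Cen y := by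
  rw [Cen, Cen, C_eq_of_zp h]

theorem bb_conj (g x : S) : bb (g * x * g⁻¹) = bb x := by
  unfold bb
  by_cases h : Cen x
  · rw [if_pos h, if_pos ((cen_conj g x).2 h), ← cj_zp, ← cj_C, cnt_cj]
  · rw [if_neg h, if_neg (fun h' => h ((cen_conj g x).1 h')), ← cj_zp, ← cj_top g, cnt_cj, cj_top]

theorem W_le (x : S) : W x ≤ C x := map_subtype_le _

theorem W_pg (x : S) : IsPGroup 2 (W x) := Core.pCoreOf_isPGroup 2 _

theorem NS_C_le (x : S) : NS (C x) ≤ NS (W x) := Core.normalizer_le_normalizer_pCoreOf 2 _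

theorem C_le_NS_W (x : S) : C x ≤ NS (W x) := Core.le_normalizer_pCoreOf 2 _

theorem NS_zp_le (x : S) : NS (zpowers x) ≤ NS (C x) := by
  intro g hg
  rw [← cj_eq_iff] at hg ⊢
  rw [cj_C]
  exact C_eq_of_zp (by rw [← cj_zp, hg])

theorem NS_le_NS_CS (A : Subgroup S) : NS A ≤ NS (CS A) := by
  intro g hg
  rw [← cj_eq_iff]
  ext y
  simp only [mem_cj, mem_centralizer_iff, SetLike.mem_coe]
  constructor
  · intro h a ha
    have := h _ (conj_mem (inv_mem hg) ha)
    calc a * y = g * (g⁻¹ * a * g⁻¹⁻¹ * (g⁻¹ * y * g)) * g⁻¹ := by group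
      _ = y * a := by rw [this]; group
  · intro h a ha
    have := h _ (conj_mem hg ha)
    calc a * (g⁻¹ * y * g) = g⁻¹ * (g * a * g⁻¹ * y) * g := by group
      _ = g⁻¹ * y * g * a := by rw [this]; group

theorem mem_NS_inf {g : S} {A B : Subgroup S} (hA : g ∈ NS A) (hB : g ∈ NS B) : g ∈ NS (A ⊓ B) := by
  rw [← cj_eq_iff] at *
  rw [cj_inf, hA, hB]

theorem C_le_NS_zp (x : S) : C x ≤ NS (zpowers x) := by
  intro g hg
  rw [← cj_eq_iff, cj_zp, mem_C'.1 hg]

end Cfsg.Lib.SPO.He
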