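import Cfsg.Agent.Lib.SPO.HeG
import Cfsg.Agent.Lib.FGS.FrobCount

/-!
Frobenius' theorem for the `7`-elements as a sum over one Sylow subgroup.
-/

set_option autoImplicit false

namespace Cfsg.Lib.SPO.He

open Subgroup
open scoped Pointwise

variable {S : Type*} [Group S] [Finite S]

/-- a `7`-subgroup normalising a Sylow `7`-subgroup lies in it -/
theorem Hy.hf_le (h : Hy S) {T R : Subgroup S} (hT : IsPGroup 7 T) (hR : Nat.card R = 343) (hn : T ≤ NS R) : T ≤ R := by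
  have : Fact (Nat.Prime 7) := ⟨by norm_num⟩
  obtain ⟨k, e⟩ := IsPGroup.iff_card.1 (hT.to_sup_of_normal_right' (IsPGroup.of_card (n := 3) hR) hn)
  have d : 7 ^ k ∣ 4030387200 := e ▸ h.card ▸ card_subgroup_dvd_card _
  have k3 : k ≤ 3 := by
    by_contra! l
    exact absurd ((pow_dvd_pow 7 l).trans d) (by norm_num)
  have l : Nat.card ↥(T ⊔ R) ≤ Nat.card R := by
    rw [e, hR]; exact Nat.pow_le_pow_right (by norm_num) k3
  exact le_sup_left.trans (eq_of_le_of_card_ge le_sup_right l).ge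

omit [Finite S] in
theorem hf_bb (x : S) (Y : Finset (Subgroup S)) (hY : ∀ Q, Q ∈ Y ↔ Nat.card Q = 343 ∧ x ∈ Q ∧ (Cen x → Q ≤ C x)) :
    bb x = Y.card := by
  refine Nat.subtype_card Y fun Q => ?_
  rw [hY, zpowers_le]
  by_cases c : Cen x <;> simp only [c, if_true, if_false, le_top, true_imp_iff, false_imp_iff] <;> tauto

/-- The number of Sylow `7`-subgroups of `B` (`B = C x` or `⊤`, `343 ∣ |B|`) containing `⟨x⟩` is `1 mod 7`. -/
theorem Hy.bb_mod (h : Hy S) {x : S} (hx : x ^ 7 = 1) : bb x % 7 = 1 := by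
  classical
  have : Fact (Nat.Prime 7) := ⟨by norm_num⟩
  have := Fintype.ofFinite (Subgroup S)
  obtain ⟨B, hB, xB, eB⟩ : ∃ B : Subgroup S, 343 ∣ Nat.card B ∧ x ∈ B ∧ ∀ Q, Q ≤ B ↔ (Cen x → Q ≤ C x) := by
    by_cases c : Cen x
    · exact ⟨C x, c, mem_C.2 rfl, by simp [c]⟩
    · exact ⟨⊤, by rw [card_top, h.card]; norm_num, mem_top x, by simp [c]⟩
  obtain ⟨P, PB, hP⟩ := exists_pow (A := B) (p := 7) (e := 3) (by norm_num) hB
  let X : Finset (Subgroup S) := Finset.univ.filter fun Q => Nat.card Q = 343 ∧ Q ≤ B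
  have hX : ∀ t ∈ B, ∀ D ∈ X, cj t D ∈ X := fun t ht D hD => by
    simp only [X, Finset.mem_filter, Finset.mem_univ, true_and] at hD ⊢
    refine ⟨(card_cj t D).trans hD.1, ?_⟩
    rw [← cj_eq_iff.2 (le_normalizer ht)]
    exact cj_le_cj.2 hD.2
  have pP : IsPGroup 7 P := IsPGroup.of_card hP
  have px : IsPGroup 7 (zpowers x) := fun y => ⟨1, by
    obtain ⟨_, k, rfl⟩ := y
    exact Subtype.ext (by
      change (x ^ k) ^ (7 ^ 1) = 1
      rw [pow_one, ← zpow_natCast, ← zpow_mul, mul_comm, zpow_mul, zpow_natCast, hx, one_zpow])⟩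
  have e1 := fix_mod pP X (fun t ht => hX t (PB ht)) {P} fun D => by
    simp only [X, Finset.mem_filter, Finset.mem_univ, true_and, Finset.mem_singleton]
    refine ⟨fun e => by rw [e]; exact ⟨⟨hP, PB⟩, le_normalizer⟩, fun ⟨⟨c, _⟩, n⟩ => ?_⟩
    exact (eq_of_le_of_card_ge (h.hf_le pP c n) (by rw [c, hP]; rfl)).symm
  have e2 := fix_mod px X (fun t ht => hX t (zpowers_le.2 xB ht))
    (Finset.univ.filter fun Q => Nat.card Q = 343 ∧ x ∈ Q ∧ (Cen x → Q ≤ C x)) fun D => by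
    simp only [X, Finset.mem_filter, Finset.mem_univ, true_and, eB]
    exact ⟨fun ⟨c, m, l⟩ => ⟨⟨c, l⟩, (zpowers_le.2 m).trans le_normalizer⟩,
      fun ⟨⟨c, l⟩, n⟩ => ⟨c, h.hf_le px c n (mem_zpowers x), l⟩⟩
  rw [hf_bb x (Finset.univ.filter fun Q => Nat.card Q = 343 ∧ x ∈ Q ∧ (Cen x → Q ≤ C x)) (by simp)]
  exact e2.symm.trans e1

theorem Hy.hf_unit (h : Hy S) {x : S} (hx : x ^ 7 = 1) : ((bb x : ℕ) : ZMod 343) * ((bb x : ℕ) : ZMod 343)⁻¹ = 1 := by
  have := h.bb_mod hx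
  have c : Nat.Coprime 7 (bb x) := (Nat.Prime.coprime_iff_not_dvd (by norm_num)).2 (by omega)
  exact ZMod.coe_mul_inv_eq_one _ (c.symm.pow_right 3)

/-- `343 ∣ #{x | x ^ 7 = 1}` (`FGS.dvd_card_pow_eq_one`). Count pairs `(x, Q)`, `|Q| = 343`, `x ∈ Q`,
`Cen x → Q ≤ C x`, with weight `(bb x)⁻¹`: for fixed `x` there are `bb x` such `Q`; for fixed `Q` the sum does
not depend on `Q` (`Hy.conj343`, `bb_conj`), and the number of `Q` is `bb 1`, a unit. -/
theorem Hy.frob (h : Hy S) {P : Subgroup S} (hP : Nat.card P = 343) (X : Finset S)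
    (hX : ∀ x, x ∈ X ↔ x ∈ P ∧ (Cen x → P ≤ C x)) : ∑ x ∈ X, ((bb x : ℕ) : ZMod 343)⁻¹ = 0 := by
  classical
  have := Fintype.ofFinite (Subgroup S)
  have := Fintype.ofFinite S
  let E : Finset S := Finset.univ.filter fun x => x ^ 7 = 1
  let 𝒬 : Finset (Subgroup S) := Finset.univ.filter fun Q => Nat.card Q = 343
  have hE : (E.card : ZMod 343) = 0 := by
    rw [ZMod.natCast_eq_zero_iff, ← Nat.subtype_card (p := fun g : S => g ^ 343 = 1) E fun g => ?_]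
    · exact FGS.dvd_card_pow_eq_one (by rw [h.card]; norm_num)
    simp only [E, Finset.mem_filter, Finset.mem_univ, true_and]
    refine ⟨fun e => by rw [show 343 = 7 * 49 from rfl, pow_mul, e, one_pow], fun e => ?_⟩
    obtain ⟨k, -, o⟩ := (Nat.dvd_prime_pow (p := 7) (m := 3) (by norm_num)).1 (orderOf_dvd_of_pow_eq_one e)
    have k1 : k ≤ 1 := by
      by_contra! l
      exact h.n49 g (o ▸ pow_dvd_pow 7 l)
    exact orderOf_dvd_iff_pow_eq_one.1 (o ▸ pow_dvd_pow 7 k1)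
  have s1 : ∑ x ∈ E, ∑ Q ∈ 𝒬 with x ∈ Q ∧ (Cen x → Q ≤ C x), ((bb x : ℕ) : ZMod 343)⁻¹ = 0 := by
    rw [← hE, Finset.card_eq_sum_ones, Nat.cast_sum]
    refine Finset.sum_congr rfl fun x hx => ?_
    rw [Finset.sum_const, ← hf_bb x _ (by simp [𝒬]), nsmul_eq_mul, h.hf_unit (Finset.mem_filter.1 hx).2, Nat.cast_one]
  have s2 : ∀ Q ∈ 𝒬, ∑ x ∈ E with x ∈ Q ∧ (Cen x → Q ≤ C x), ((bb x : ℕ) : ZMod 343)⁻¹ =
      ∑ x ∈ X, ((bb x : ℕ) : ZMod 343)⁻¹ := fun Q hQ => by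
    obtain ⟨g, -, rfl⟩ := h.conj343 hP (Finset.mem_filter.1 hQ).2 le_top le_top
    refine (Finset.sum_equiv (MulAut.conj g).toEquiv (fun x => ?_) fun x _ => ?_).symm
    · change _ ↔ g * x * g⁻¹ ∈ _
      simp only [hX, E, Finset.mem_filter, Finset.mem_univ, true_and, conj_mem_cj, cen_conj, ← cj_C, cj_le_cj, conj_pow,
        conj_eq_one_iff]
      exact ⟨fun k => ⟨h.ex7 hP k.1, k⟩, fun k => k.2⟩
    · change _ = ((bb (g * x * g⁻¹) : ℕ) : ZMod 343)⁻¹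
      rw [bb_conj]
  rw [Finset.sum_comm' (t' := 𝒬) (s' := fun Q => E.filter fun x => x ∈ Q ∧ (Cen x → Q ≤ C x))
    (fun x Q => by simp only [Finset.mem_filter]; tauto), Finset.sum_congr rfl s2, Finset.sum_const,
    ← hf_bb 1 _ (fun Q => by
      simp only [𝒬, Finset.mem_filter, Finset.mem_univ, true_and, one_mem]
      exact ⟨fun c => ⟨c, fun _ y _ => mem_C.2 (by simp)⟩, fun c => c.1⟩), nsmul_eq_mul] at s1
  have u := h.hf_unit (one_pow 7)
  rw [← one_mul (∑ x ∈ X, _), ← u, mul_comm (bb (1 : S) : ZMod 343), mul_assoc, s1, mul_zero]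

end Cfsg.Lib.SPO.He
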