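import Cfsg.Agent.Lib.SPO.HeD
import Cfsg.Agent.Lib.BG.Hall
import Cfsg.Agent.Lib.Transfer.Criteria

/-!
Generic counting tools and element orders in centralizers of elements of order `7`.
-/

set_option autoImplicit false
set_option linter.unusedSectionVars false

namespace Cfsg.Lib.SPO.He

open Subgroup
open scoped Pointwise

variable {S : Type*} [Group S] [Finite S]

theorem g_f7 : Fact (Nat.Prime 7) := ⟨by norm_num⟩

theorem g_mod {T α : Type*} [Group T] [MulAction T α] {p : ℕ} [Fact p.Prime] (hT : IsPGroup p T) (X : Finset α)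
    (hX : ∀ t : T, ∀ x ∈ X, t • x ∈ X) (Y : Finset α) (hY : ∀ x, x ∈ Y ↔ x ∈ X ∧ ∀ t : T, t • x = x) :
    X.card ≡ Y.card [MOD p] := by
  let M : SubMulAction T α := ⟨X, fun t {x} hx => hX t x hx⟩
  have : Finite M := X.finite_toSet
  have e := hT.card_modEq_card_fixedPoints M
  rw [← Nat.card_eq_finsetCard, ← Nat.card_eq_finsetCard]
  exact e.trans (by
    rw [Nat.card_congr (show MulAction.fixedPoints T M ≃ Y from
      ⟨fun x => ⟨x.1.1, (hY _).2 ⟨x.1.2, fun t => congrArg Subtype.val (x.2 t)⟩⟩,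
        fun y => ⟨⟨y.1, ((hY _).1 y.2).1⟩, fun t => Subtype.ext (((hY _).1 y.2).2 t)⟩, fun _ => rfl, fun _ => rfl⟩)])

theorem g_dvd {T α : Type*} [Group T] [MulAction T α] (X : Finset α) (hX : ∀ t : T, ∀ x ∈ X, t • x ∈ X) {d : ℕ}
    (h : ∀ x ∈ X, d ∣ (MulAction.stabilizer T x).index) : d ∣ X.card := by
  classical
  let M : SubMulAction T α := ⟨X, fun t {x} hx => hX t x hx⟩
  have : Finite M := X.finite_toSet
  have := Fintype.ofFinite (MulAction.orbitRel.Quotient T M)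
  rw [← Nat.card_eq_finsetCard]
  change d ∣ Nat.card M
  rw [Nat.card_congr (MulAction.selfEquivSigmaOrbits T M), Nat.card_sigma]
  refine Finset.dvd_sum fun ω _ => ?_
  rw [Nat.card_coe_set_eq, ← MulAction.index_stabilizer, SubMulAction.stabilizer_of_subMul]
  exact h _ (Subtype.prop _)

omit [Finite S] in
theorem g_orb {q : ℕ} {A B H R : Subgroup S} (k : ∀ Q, A ≤ Q ∧ Q ≤ B ∧ Nat.card Q = q ↔ ∃ u ∈ H, cj u R = Q) :
    cnt q A B * Nat.card (H ⊓ NS R : Subgroup S) = Nat.card H := by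
  let _ : MulAction H (Subgroup S) := MulAction.compHom _ ((MulAut.conj : S →* MulAut S).comp H.subtype)
  have e : MulAction.stabilizer H R = (NS R).subgroupOf H := Subgroup.ext fun u => cj_eq_iff
  have e' : cnt q A B = (NS R).relIndex H := by
    rw [relIndex, ← e, MulAction.index_stabilizer, ← Nat.card_coe_set_eq]
    exact Nat.card_congr (Equiv.subtypeEquivRight fun Q => (k Q).trans
      ⟨fun ⟨u, hu, e⟩ => ⟨⟨u, hu⟩, e⟩, fun ⟨u, e⟩ => ⟨u, u.2, e⟩⟩)
  rw [e', mul_comm, ← inf_relIndex_left]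
  exact Transfer.card_mul_relIndex inf_le_left

omit [Finite S] in
theorem g_rel (T K : Subgroup S) : Nat.card (T ⊓ K : Subgroup S) * K.relIndex T = Nat.card T := by
  rw [← inf_relIndex_left]
  exact Transfer.card_mul_relIndex inf_le_left

theorem g_ord {w g : S} (hw : orderOf w = 7) (hg : g ∈ C w) {k : ℕ} (c : Nat.Coprime 7 k) (d : k ∣ orderOf g) :
    ∃ x : S, 7 * k ∣ orderOf x := by
  have o := orderOf_pow_orderOf_div (orderOf_pos g).ne' d
  have e := Commute.orderOf_mul_eq_mul_orderOf_of_coprime (Commute.pow_right (mem_C.1 hg) (orderOf g / k))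
    (by rwa [hw, o])
  rw [hw, o] at e
  exact ⟨_, e.symm.dvd⟩

/-- A `p`-subgroup acting by conjugation on a set of subgroups. -/
theorem fix_mod {p : ℕ} [Fact p.Prime] {T : Subgroup S} (hT : IsPGroup p T) (X : Finset (Subgroup S))
    (hX : ∀ t ∈ T, ∀ D ∈ X, cj t D ∈ X) (Y : Finset (Subgroup S)) (hY : ∀ D, D ∈ Y ↔ D ∈ X ∧ T ≤ NS D) :
    X.card ≡ Y.card [MOD p] := by
  let _ : MulAction T (Subgroup S) := MulAction.compHom _ ((MulAut.conj : S →* MulAut S).comp T.subtype)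
  exact g_mod hT X (fun t => hX t t.2) Y fun D => (hY D).trans (and_congr_right fun _ =>
    ⟨fun l t => cj_eq_iff.2 (l t.2), fun l t ht => cj_eq_iff.1 (l ⟨t, ht⟩)⟩)

/-- Some orbit of `T` on `X` has length at most `p ^ e`. -/
theorem exists_stab {p : ℕ} [Fact p.Prime] {T : Subgroup S} (hT : IsPGroup p T) (X : Finset S)
    (hX : ∀ t ∈ T, ∀ x ∈ X, t * x * t⁻¹ ∈ X) {e : ℕ} (h : ¬ p ^ (e + 1) ∣ X.card) :
    ∃ x ∈ X, Nat.card T ∣ p ^ e * Nat.card (T ⊓ C x : Subgroup S) := by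
  let _ : MulAction T S := MulAction.compHom _ ((MulAut.conj : S →* MulAut S).comp T.subtype)
  by_contra n
  refine h (g_dvd (T := T) X (fun t => hX t t.2) fun x hx => ?_)
  have e' : MulAction.stabilizer T x = (C x).subgroupOf T := Subgroup.ext fun u => mem_C'.symm
  obtain ⟨i, hi⟩ := hT.index ((C x).subgroupOf T)
  rw [e', hi]
  refine pow_dvd_pow p (by_contra fun l => n ⟨x, hx, ?_⟩)
  rw [← g_rel T (C x), relIndex, hi, mul_comm]
  exact Nat.mul_dvd_mul_right (pow_dvd_pow p (by omega)) _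

/-- An orbit of a `2`-group inside a set with fewer than `8` elements has length at most `4`. -/
theorem orb_le {V : Subgroup S} (hV : IsPGroup 2 V) (X : Finset (Subgroup S))
    (hX : ∀ t ∈ V, ∀ D ∈ X, cj t D ∈ X) (h : X.card < 8) {D : Subgroup S} (hD : D ∈ X) :
    Nat.card V ∣ 4 * Nat.card (V ⊓ NS D : Subgroup S) := by
  have := Fact.mk Nat.prime_two
  let _ : MulAction V (Subgroup S) := MulAction.compHom _ ((MulAut.conj : S →* MulAut S).comp V.subtype)
  have e : MulAction.stabilizer V D = (NS D).subgroupOf V := Subgroup.ext fun u => cj_eq_iff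
  have l : (MulAction.orbit V D).ncard ≤ (X : Set (Subgroup S)).ncard :=
    Set.ncard_le_ncard (fun _ ⟨t, e⟩ => e ▸ hX t t.2 D hD) X.finite_toSet
  obtain ⟨i, hi⟩ := hV.index ((NS D).subgroupOf V)
  rw [← MulAction.index_stabilizer, e, Set.ncard_coe_finset, hi] at l
  rw [← g_rel V (NS D), relIndex, hi, mul_comm]
  refine Nat.mul_dvd_mul_right (pow_dvd_pow 2 (show i ≤ 2 from by_contra fun m => ?_)) _
  have := Nat.pow_le_pow_right two_pos (show 3 ≤ i by omega)
  omega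

theorem exists_ord {A : Subgroup S} {p : ℕ} (hp : p.Prime) (h : p ∣ Nat.card A) :
    ∃ g ∈ A, orderOf g = p := by
  exact Core.exists_mem_orderOf_eq_prime hp h

theorem exists_pow {A : Subgroup S} {p e : ℕ} (hp : p.Prime) (h : p ^ e ∣ Nat.card A) :
    ∃ T ≤ A, Nat.card T = p ^ e := by
  have := Fact.mk hp
  obtain ⟨K, hK⟩ := Sylow.exists_subgroup_card_pow_prime p h
  exact ⟨K.map A.subtype, map_subtype_le K, (card_map_of_injective A.subtype_injective).trans hK⟩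

theorem Hy.n4 (h : Hy S) {w g : S} (hw : orderOf w = 7) (hg : g ∈ C w) : ¬ 4 ∣ orderOf g := by
  exact fun d => let ⟨x, e⟩ := g_ord hw hg (by norm_num) d; h.n28 x e

theorem Hy.n5 (h : Hy S) {w g : S} (hw : orderOf w = 7) (hg : g ∈ C w) : ¬ 5 ∣ orderOf g := by
  exact fun d => let ⟨x, e⟩ := g_ord hw hg (by norm_num) d; h.n35 x e

theorem Hy.n6 (h : Hy S) {w g : S} (hw : orderOf w = 7) (hg : g ∈ C w) : ¬ 6 ∣ orderOf g := by
  exact fun d => let ⟨x, e⟩ := g_ord hw hg (by norm_num) d; h.n42 x e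

theorem Hy.n9 (h : Hy S) {w g : S} (hw : orderOf w = 7) (hg : g ∈ C w) : ¬ 9 ∣ orderOf g := by
  exact fun d => let ⟨x, e⟩ := g_ord hw hg (by norm_num) d; h.n63 x e

theorem Hy.n17 (h : Hy S) {w g : S} (hw : orderOf w = 7) (hg : g ∈ C w) : ¬ 17 ∣ orderOf g := by
  exact fun d => let ⟨x, e⟩ := g_ord hw hg (by norm_num) d; h.n119 x e

theorem Hy.no42 (h : Hy S) {w t r : S} (hw : orderOf w = 7) (ht : t ∈ C w) (hr : r ∈ C w)
    (h2 : orderOf t = 2) (h3 : orderOf r = 3) (hc : t * r = r * t) : False := by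
  refine h.n6 hw (mul_mem ht hr) ?_
  rw [Commute.orderOf_mul_eq_mul_orderOf_of_coprime hc (by rw [h2, h3]; norm_num), h2, h3]

theorem Hy.card_C_dvd (h : Hy S) {w : S} (hw : orderOf w = 7) : Nat.card (C w) ∣ 9483264 := by
  have d : Nat.card (C w) ∣ 9483264 * 5 ^ 2 * 17 := by
    have := card_subgroup_dvd_card (C w)
    rwa [h.card] at this
  have k : ∀ p : ℕ, p.Prime → (∀ g ∈ C w, ¬ p ∣ orderOf g) → (Nat.card (C w)).Coprime p := fun p hp n =>
    ((Nat.Prime.coprime_iff_not_dvd hp).2 fun d => let ⟨g, hg, o⟩ := exists_ord hp d; n g hg o.symm.dvd).symm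
  exact ((k 5 Nat.prime_five fun _ => h.n5 hw).pow_right 2).dvd_of_dvd_mul_right
    ((k 17 (by norm_num) fun _ => h.n17 hw).dvd_of_dvd_mul_right d)

theorem Hy.sq (h : Hy S) {w : S} (hw : orderOf w = 7) {V : Subgroup S} (hV : V ≤ C w)
    (h2 : IsPGroup 2 V) {u : S} (hu : u ∈ V) : u ^ 2 = 1 := by
  have := Fact.mk Nat.prime_two
  obtain ⟨k, e⟩ := IsPGroup.iff_orderOf.1 h2 ⟨u, hu⟩
  rw [orderOf_mk] at e
  rw [← orderOf_dvd_iff_pow_eq_one, e]
  exact (pow_dvd_pow 2 (show k ≤ 1 from by_contra fun l =>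
    h.n4 hw (hV hu) (e ▸ pow_dvd_pow 2 (show 2 ≤ k by omega)))).trans (by norm_num)

theorem Hy.two_comm (h : Hy S) {w : S} (hw : orderOf w = 7) {V : Subgroup S} (hV : V ≤ C w)
    (h2 : IsPGroup 2 V) {u v : S} (hu : u ∈ V) (hv : v ∈ V) : u * v = v * u := by
  have k := h.sq hw hV h2 (mul_mem hu hv)
  have ka := h.sq hw hV h2 hu
  have kb := h.sq hw hV h2 hv
  rw [pow_two] at k ka kb
  calc u * v = (u * v)⁻¹ := eq_inv_of_mul_eq_one_left k
    _ = v * u := by rw [mul_inv_rev, inv_eq_of_mul_eq_one_left ka, inv_eq_of_mul_eq_one_left kb]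

/-- A subgroup of exponent `2` has index at least `4` in a Sylow `2`-subgroup (which has an element
of order `8`). -/
theorem Hy.two_le (h : Hy S) {w : S} (hw : orderOf w = 7) {V : Subgroup S} (hV : V ≤ C w)
    (h2 : IsPGroup 2 V) : Nat.card V ≤ 256 := by
  have := Fact.mk Nat.prime_two
  obtain ⟨T, hT, l⟩ := BG.Syl.exists_ge h2 (le_top : V ≤ ⊤)
  obtain ⟨g, og⟩ := h.e8
  obtain ⟨k, -, hk⟩ := hT.exists_conj_le (Q := zpowers g)
    (IsPGroup.of_card (n := 3) (by rw [Nat.card_zpowers, og]; rfl)) le_top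
  have e := Transfer.card_mul_relIndex l
  obtain ⟨n, n0, n1, m⟩ := exists_pow_mem_of_relIndex_ne_zero (H := V) (K := T) (index_ne_zero_of_finite)
    (hk (Transfer.conj_mem_conj.2 (mem_zpowers g)))
  have o := h.sq hw hV h2 m.1
  rw [← pow_mul, conj_pow, mul_inv_eq_one, mul_eq_left, ← orderOf_dvd_iff_pow_eq_one, og] at o
  obtain ⟨j, hj⟩ := IsPGroup.iff_card.1 hT.pgroup
  have d : Nat.card T ∣ 1024 * 3935925 := by
    have := card_subgroup_dvd_card T
    rwa [h.card] at this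
  have d' : Nat.card T ∣ 1024 := Nat.Coprime.dvd_of_dvd_mul_right (hj ▸ Nat.Coprime.pow_left j (by norm_num)) d
  have := Nat.le_of_dvd (by norm_num) d'
  have : Nat.card V * 4 ≤ Nat.card V * V.relIndex T := Nat.mul_le_mul_left _ (by omega)
  omega

theorem Hy.ex7 (h : Hy S) {P : Subgroup S} (hP : Nat.card P = 343) {x : S} (hx : x ∈ P) :
    x ^ 7 = 1 := by
  obtain ⟨i, -, e⟩ := (Nat.dvd_prime_pow (by norm_num : Nat.Prime 7) (m := 3)).1 (hP ▸ P.orderOf_dvd_natCard hx)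
  rw [← orderOf_dvd_iff_pow_eq_one, e]
  exact (pow_dvd_pow 7 (show i ≤ 1 from by_contra fun l =>
    h.n49 x (e ▸ pow_dvd_pow 7 (show 2 ≤ i by omega)))).trans (by norm_num)

/-- Subgroups of order `343` of a subgroup `B` are conjugate in `B`. -/
theorem Hy.conj343 (h : Hy S) {P Q B : Subgroup S} (hP : Nat.card P = 343) (hQ : Nat.card Q = 343)
    (hPB : P ≤ B) (hQB : Q ≤ B) : ∃ g ∈ B, cj g P = Q := by
  have := g_f7
  have k : ∀ R ≤ B, Nat.card R = 343 → BG.Syl 7 R B := fun R l c =>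
    BG.Syl.mk' l (IsPGroup.of_card (n := 3) c) fun d => by
      have e := card_subgroup_dvd_card B
      rw [← Transfer.card_mul_relIndex l, c, h.card] at e
      exact absurd ((Nat.mul_dvd_mul_left 343 d).trans e) (by norm_num)
  obtain ⟨g, hg, e⟩ := (k P hPB hP).exists_conj_eq (k Q hQB hQ)
  exact ⟨g, hg, e.symm⟩

/-- `|N(P)| = 343 m`, `m ∣ 2 ^ 10 * 27`, `n_7 m = |S| / 343`. -/
theorem Hy.card_NS (h : Hy S) {P : Subgroup S} (hP : Nat.card P = 343) :
    ∃ m, Nat.card (NS P) = 343 * m ∧ m ∣ 27648 ∧ cnt 343 ⊥ (⊤ : Subgroup S) * m = 11750400 := by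
  have := g_f7
  obtain ⟨m, e⟩ := hP ▸ card_dvd_of_le (le_normalizer : P ≤ NS P)
  have c := g_orb (q := 343) (A := ⊥) (B := ⊤) (H := ⊤) (R := P) fun Q =>
    ⟨fun k => h.conj343 hP k.2.2 le_top le_top, fun ⟨u, _, k⟩ => ⟨bot_le, le_top, by rw [← k, card_cj, hP]⟩⟩
  rw [top_inf_eq, card_top, h.card, e] at c
  have c' : cnt 343 ⊥ (⊤ : Subgroup S) * m = 11750400 := by linarith
  have k : ∀ p : ℕ, p.Prime → ¬ 343 ≡ 1 [MOD p] → (∀ w g : S, orderOf w = 7 → g ∈ C w → ¬ p ∣ orderOf g) → m.Coprime p :=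
    fun p hp n1 n2 => ((Nat.Prime.coprime_iff_not_dvd hp).2 fun d => by
      have := Fact.mk hp
      obtain ⟨g, hg, o⟩ := exists_ord hp (e ▸ d.mul_left 343)
      have md := Transfer.card_modEq_card_inf_centralizer (A := zpowers g) (q := p)
        (IsPGroup.of_card (n := 1) (by rw [Nat.card_zpowers, o, pow_one])) (zpowers_le.2 hg)
      have ne : P ⊓ CS (zpowers g) ≠ ⊥ := fun f => n1 (by rwa [f, card_bot, hP] at md)
      obtain ⟨w, hw, ow⟩ := exists_ord (by norm_num)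
        (BG.pgroup_dvd_card ((IsPGroup.of_card (p := 7) (n := 3) hP).to_le inf_le_left) ne)
      exact n2 w g ow (mem_C.2 (hw.2 g (mem_zpowers g)).symm) o.symm.dvd).symm
  have d : m ∣ 27648 * 5 ^ 2 * 17 := Dvd.intro_left _ c'
  exact ⟨m, e, ((k 5 Nat.prime_five (by decide) fun _ _ => h.n5).pow_right 2).dvd_of_dvd_mul_right
    ((k 17 (by norm_num) (by decide) fun _ _ => h.n17).dvd_of_dvd_mul_right d), c'⟩

end Cfsg.Lib.SPO.He
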