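import Cfsg.Agent.Lib.SPO.HeG

/-!
The extraspecial group of order `343` and exponent `7`.
-/

set_option autoImplicit false

namespace Cfsg.Lib.SPO.He

open Subgroup
open scoped Pointwise

variable {S : Type*} [Group S] [Finite S]

variable {P D : Subgroup S} {z : S}

theorem hep_up {A B : Subgroup S} {x : S} (hP : Nat.card P = 343) (hA : A ≤ B) (hB : B ≤ P) (hx : x ∈ B) (hn : x ∉ A) :
    7 * Nat.card A ≤ Nat.card B := by
  have d1 : Nat.card B ∣ 7 ^ 3 := (show Nat.card P = 7 ^ 3 from hP) ▸ card_dvd_of_le hB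
  obtain ⟨j, -, e2⟩ := (Nat.dvd_prime_pow (by norm_num)).1 d1
  obtain ⟨i, -, e1⟩ := (Nat.dvd_prime_pow (by norm_num)).1 ((card_dvd_of_le hA).trans d1)
  have : Nat.card A < Nat.card B := lt_of_not_ge fun h => hn (eq_of_le_of_card_ge hA h ▸ hx)
  rw [e1, e2, Nat.pow_lt_pow_iff_right (by norm_num)] at this
  rw [e1, e2, ← pow_succ']
  exact Nat.pow_le_pow_right (by norm_num) this

omit [Finite S] in
theorem hep_comm (hD : Nat.card D = 49) {x y : S} (hx : x ∈ D) (hy : y ∈ D) : x * y = y * x := by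
  have : Fact (Nat.Prime 7) := ⟨by norm_num⟩
  have := IsPGroup.isMulCommutative_of_card_eq_prime_sq (p := 7) (G := D) hD
  exact congrArg Subtype.val (this.is_comm.comm (⟨x, hx⟩ : D) ⟨y, hy⟩)

omit [Finite S] in
theorem NA.hp_ord (hP : NA P z) {x : S} (hx : x ∈ P) (h1 : x ≠ 1) : orderOf x = 7 := by
  have : Fact (Nat.Prime 7) := ⟨by norm_num⟩
  exact orderOf_eq_prime (hP.ex x hx) h1

omit [Finite S] in
theorem NA.hp_cz (hP : NA P z) : Nat.card (zpowers z) = 7 := by rw [Nat.card_zpowers, hP.ord]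

omit [Finite S] in
theorem NA.hp_zc (hP : NA P z) {x w : S} (hx : x ∈ P) (hw : w ∈ zpowers z) : w * x = x * w := by
  obtain ⟨k, rfl⟩ := mem_zpowers_iff.1 hw
  exact Commute.zpow_left (mem_C.1 (hP.cen hx)) k

theorem exists_NA (hP : Nat.card P = 343) (ex : ∀ x ∈ P, x ^ 7 = 1)
    (nab : ∃ a ∈ P, ∃ b ∈ P, a * b ≠ b * a) : ∃ z, NA P z := by
  have : Fact (Nat.Prime 7) := ⟨by norm_num⟩
  have : Nontrivial P := Finite.one_lt_card_iff_nontrivial.1 (by omega)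
  have := (IsPGroup.of_card (p := 7) (n := 3) hP).center_nontrivial
  obtain ⟨⟨z, hz⟩, z1⟩ := exists_ne (1 : center P)
  refine ⟨z, hP, z.2, orderOf_eq_prime (ex _ z.2) fun e => z1 (Subtype.ext (Subtype.ext e)), fun x hx => ?_, ex, nab⟩
  exact mem_C.2 (congrArg Subtype.val (mem_center_iff.1 hz ⟨x, hx⟩)).symm

theorem NA.cen_mem (hP : NA P z) {x : S} (hx : x ∈ P) (h : P ≤ C x) : x ∈ zpowers z := by
  by_contra hn
  obtain ⟨a, ha, b, hb, ab⟩ := hP.nab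
  have c1 := hep_up (A := zpowers z) (B := P ⊓ CS P) hP.card
    (zpowers_le.2 ⟨hP.mem, mem_centralizer_iff.2 fun g hg => (mem_C.1 (hP.cen hg)).symm⟩) inf_le_left
    ⟨hx, mem_centralizer_iff.2 fun g hg => (mem_C.1 (h hg)).symm⟩ hn
  have c2 := hep_up (A := P ⊓ CS P) (B := P ⊓ C a) hP.card (fun g hg => ⟨hg.1, mem_C.2 (mem_centralizer_iff.1 hg.2 a ha)⟩)
    inf_le_left ⟨ha, mem_C.2 rfl⟩ fun q => ab (mem_centralizer_iff.1 q.2 b hb).symm
  have e := eq_of_le_of_card_ge (inf_le_left : P ⊓ C a ≤ P) (by have := hP.card; have := hP.hp_cz; omega)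
  exact ab (mem_C.1 (e.ge hb).2)

theorem NA.NS_le (hP : NA P z) : NS P ≤ NS (zpowers z) := by
  refine fun g hg => mem_normalizer_fintype fun n hn => hP.cen_mem (conj_mem hg (zpowers_le.2 hP.mem hn)) fun x hx => mem_C.2 ?_
  have := hP.hp_zc (conj_mem (inv_mem hg) hx) hn
  calc g * n * g⁻¹ * x = g * (n * (g⁻¹ * x * g⁻¹⁻¹)) * g⁻¹ := by group
    _ = x * (g * n * g⁻¹) := by rw [this]; group

theorem NA.inf_mem (hP : NA P z) {x : S} (hx : x ∈ P) (hz : x ∉ zpowers z) : P ⊓ C x ∈ DD P := by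
  have c1 := hep_up (A := zpowers z) (B := P ⊓ C x) hP.card (zpowers_le.2 ⟨hP.mem, mem_C_comm.1 (hP.cen hx)⟩) inf_le_left
    ⟨hx, mem_C.2 rfl⟩ hz
  obtain ⟨y, hy, hn⟩ := SetLike.not_le_iff_exists.1 fun q => hz (hP.cen_mem hx q)
  have c2 := hep_up (A := P ⊓ C x) hP.card inf_le_left le_rfl hy fun q => hn q.2
  have := hP.card
  have := hP.hp_cz
  exact mem_DD.2 ⟨inf_le_left, by omega⟩

theorem NA.z_mem (hP : NA P z) (hD : D ∈ DD P) : z ∈ D := by
  by_contra hn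
  obtain ⟨l, c⟩ := mem_DD.1 hD
  have l2 : D ⊔ zpowers z ≤ P := sup_le l (zpowers_le.2 hP.mem)
  have c1 := hep_up hP.card le_sup_left l2 (mem_sup_right (mem_zpowers z)) hn
  have e := eq_of_le_of_card_ge l2 (by have := hP.card; omega)
  have := card_le_of_le (show D ≤ zpowers z from fun x hx => hP.cen_mem (l hx) (e ▸ sup_le (fun y hy => mem_C.2 (hep_comm c hx hy))
    (zpowers_le.2 (mem_C_comm.1 (hP.cen (l hx))))))
  have := hP.hp_cz
  omega

theorem NA.eq_inf (hP : NA P z) (hD : D ∈ DD P) {x : S} (hx : x ∈ D) (hz : x ∉ zpowers z) :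
    D = P ⊓ C x := by
  obtain ⟨l, c⟩ := mem_DD.1 hD
  exact eq_of_le_of_card_ge (fun y hy => ⟨l hy, mem_C.2 (hep_comm c hx hy)⟩) (by rw [c, (mem_DD.1 (hP.inf_mem (l hx) hz)).2])

theorem NA.eq_sup (hP : NA P z) (hD : D ∈ DD P) {x : S} (hx : x ∈ D) (hz : x ∉ zpowers z) :
    D = zpowers x ⊔ zpowers z := by
  obtain ⟨l, c⟩ := mem_DD.1 hD
  have l2 : zpowers x ⊔ zpowers z ≤ D := sup_le (zpowers_le.2 hx) (zpowers_le.2 (hP.z_mem hD))
  have c1 := hep_up hP.card le_sup_right (l2.trans l) (mem_sup_left (mem_zpowers x)) hz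
  exact (eq_of_le_of_card_ge l2 (by have := hP.hp_cz; omega)).symm

theorem NA.sup_eq (hP : NA P z) (hD : D ∈ DD P) {y : S} (hy : y ∈ P) (hn : y ∉ D) :
    P = D ⊔ zpowers y := by
  obtain ⟨l, c⟩ := mem_DD.1 hD
  have l2 : D ⊔ zpowers y ≤ P := sup_le l (zpowers_le.2 hy)
  have c1 := hep_up hP.card le_sup_left l2 (mem_sup_right (mem_zpowers y)) hn
  exact (eq_of_le_of_card_ge l2 (by have := hP.card; omega)).symm

theorem NA.le_NS (hP : NA P z) (hD : D ∈ DD P) : P ≤ NS D := by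
  obtain ⟨l, c⟩ := mem_DD.1 hD
  have e := (D.subgroupOf P).card_mul_index
  rw [Nat.card_congr (subgroupOfEquivOfLe l).toEquiv, c, hP.card] at e
  refine (normal_subgroupOf_iff_le_normalizer l).1 (normal_of_index_eq_minFac_card ?_)
  rw [hP.card, show Nat.minFac 343 = 7 by norm_num]
  omega

theorem NA.comm_mem (hP : NA P z) {a b : S} (ha : a ∈ P) (hb : b ∈ P) :
    a * b * a⁻¹ * b⁻¹ ∈ zpowers z := by
  by_contra hn
  have ab : a * b ≠ b * a := fun e => hn (by rw [e, mul_inv_cancel_right, mul_inv_cancel]; exact one_mem _)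
  have da := hP.inf_mem ha fun q => ab (hP.hp_zc hb q)
  have db := hP.inf_mem hb fun q => ab (hP.hp_zc ha q).symm
  have ma : a * b * a⁻¹ * b⁻¹ ∈ P ⊓ C a := by
    rw [show a * b * a⁻¹ * b⁻¹ = a * (b * a⁻¹ * b⁻¹) by group]
    exact mul_mem ⟨ha, mem_C.2 rfl⟩ (conj_mem (hP.le_NS da hb) (inv_mem ⟨ha, mem_C.2 rfl⟩))
  have mb : a * b * a⁻¹ * b⁻¹ ∈ P ⊓ C b := mul_mem (conj_mem (hP.le_NS db ha) ⟨hb, mem_C.2 rfl⟩) (inv_mem ⟨hb, mem_C.2 rfl⟩)
  have e := (hP.eq_inf da ma hn).trans (hP.eq_inf db mb hn).symm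
  exact ab (mem_C.1 (e.ge ⟨hb, mem_C.2 rfl⟩).2)

theorem NA.card_out' (hP : NA P z) (hD : z ∈ D) : (out z D).card = Nat.card D - 7 := by
  have e : ((out z D : Finset S) : Set S) = (D : Set S) \ (zpowers z : Set S) := by ext x; simp [mem_out]
  rw [← Set.ncard_coe_finset, e, Set.ncard_sdiff (zpowers_le.2 hD : zpowers z ≤ D), ← hP.hp_cz]
  rfl

theorem NA.card_out (hP : NA P z) (hD : D ∈ DD P) : (out z D).card = 42 := by
  rw [hP.card_out' (hP.z_mem hD), (mem_DD.1 hD).2]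

theorem NA.sum_out (hP : NA P z) {M : Type*} [AddCommMonoid M] (f : S → M) :
    ∑ x ∈ out z P, f x = ∑ D ∈ DD P, ∑ x ∈ out z D, f x := by
  classical
  have e : out z P = (DD P).biUnion (out z) := by
    ext x
    rw [Finset.mem_biUnion, mem_out]
    exact ⟨fun h => ⟨_, hP.inf_mem h.1 h.2, mem_out.2 ⟨⟨h.1, mem_C.2 rfl⟩, h.2⟩⟩,
      fun ⟨D, hD, h⟩ => ⟨(mem_DD.1 hD).1 (mem_out.1 h).1, (mem_out.1 h).2⟩⟩
  rw [e, Finset.sum_biUnion]
  intro D hD E hE ne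
  refine Finset.disjoint_left.2 fun x h1 h2 => ne ?_
  exact (hP.eq_inf hD (mem_out.1 h1).1 (mem_out.1 h1).2).trans (hP.eq_inf hE (mem_out.1 h2).1 (mem_out.1 h2).2).symm

theorem NA.card_DD (hP : NA P z) : (DD P).card = 8 := by
  have e := hP.sum_out fun _ => (1 : ℕ)
  rw [← Finset.card_eq_sum_ones, hP.card_out' hP.mem, hP.card,
    Finset.sum_congr rfl fun D hD => (Finset.card_eq_sum_ones _).symm.trans (hP.card_out hD), Finset.sum_const, smul_eq_mul] at e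
  omega

/-- The `P`-class of `x` is `x ⟨z⟩`, and `D = ⋃ x ^ a ⟨z⟩`. -/
theorem NA.fuse (hP : NA P z) (hD : D ∈ DD P) {x y : S} (hx : x ∈ D) (hxz : x ∉ zpowers z)
    (hy : y ∈ D) (hyz : y ∉ zpowers z) : ∃ g ∈ P, zpowers y = zpowers (g * x * g⁻¹) := by
  have l := (mem_DD.1 hD).1
  have m : x ∈ ((zpowers y ⊔ zpowers z : Subgroup S) : Set S) := hP.eq_sup hD hy hyz ▸ hx
  rw [coe_mul_of_left_le_normalizer_right _ _ (zpowers_le.2 (C_le_NS_zp z (hP.cen (l hy))))] at m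
  obtain ⟨v, hv, w, hw, e⟩ := m
  obtain ⟨b, hb, hn⟩ := SetLike.not_le_iff_exists.1 fun q => hxz (hP.cen_mem (l hx) q)
  have hc := hP.comm_mem hb (l hx)
  have c1 : b * x * b⁻¹ * x⁻¹ ≠ 1 := fun q => hn (mem_C'.2 (mul_inv_eq_one.1 q))
  have zP := zpowers_le.2 hP.mem
  have ez := eq_of_le_of_card_ge (zpowers_le.2 hc) (by rw [hP.hp_cz, Nat.card_zpowers, hP.hp_ord (zP hc) c1])
  obtain ⟨k, hk⟩ := (mem_powers_iff_mem_zpowers.2 (ez.ge (inv_mem hw)) : w⁻¹ ∈ Submonoid.powers _)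
  have key : ∀ k : ℕ, b ^ k * x * (b ^ k)⁻¹ = (b * x * b⁻¹ * x⁻¹) ^ k * x := fun k => by
    induction k with
    | zero => simp
    | succ k ih =>
      calc b ^ (k + 1) * x * (b ^ (k + 1))⁻¹ = b * (b ^ k * x * (b ^ k)⁻¹) * b⁻¹ := by group
        _ = (b * x * b⁻¹ * x⁻¹) ^ k * b * x * b⁻¹ := by rw [ih, hP.hp_zc hb (pow_mem hc k), ← mul_assoc b]
        _ = _ := by rw [pow_succ]; group
  have ev : b ^ k * x * (b ^ k)⁻¹ = v := by
    simp only at hk e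
    rw [key, hk, hP.hp_zc (l hx) (inv_mem hw), ← e, mul_inv_cancel_right]
  refine ⟨b ^ k, pow_mem hb k, (eq_of_le_of_card_ge (zpowers_le.2 (ev ▸ hv)) ?_).symm⟩
  rw [Nat.card_zpowers, Nat.card_zpowers, hP.hp_ord (l hy) fun q => hyz (q ▸ one_mem _),
    hP.hp_ord (mul_mem (mul_mem (pow_mem hb k) (l hx)) (inv_mem (pow_mem hb k))) fun q => hxz ?_]
  rw [show x = 1 by simpa using q]
  exact one_mem _

end Cfsg.Lib.SPO.He
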