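import Cfsg.Agent.Lib.SPO.HeP
import Cfsg.Agent.Lib.SPL.KJ
import Cfsg.Agent.Lib.Coprime.FrobAction
import Cfsg.Agent.Lib.BG.T03_1

/-!
Automorphisms of order `2` and `3` of the extraspecial group, and fusion.
-/

set_option autoImplicit false

namespace Cfsg.Lib.SPO.He

open Subgroup
open scoped Pointwise

variable {S : Type*} [Group S] [Finite S]

variable {P D : Subgroup S} {z : S}

theorem u_inv {A : Subgroup S} {t : S} (ht : t ∈ NS A) (h2 : t ^ 2 = 1) (hf : ∀ x ∈ A, t ∈ C x → x = 1) {x : S}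
    (hx : x ∈ A) : t * x * t⁻¹ = x⁻¹ := by
  have k := MonoidHom.FixedPointFree.coe_eq_inv_of_involutive (φ := A.normalizerMonoidHom ⟨t, ht⟩)
    (fun y hy => Subtype.ext (hf y y.2 (mem_C_comm.1 (mem_C_comm.1 (mem_C'.2 (congrArg Subtype.val hy))))))
    (fun y => Subtype.ext (by
      change t * (t * y * t⁻¹) * t⁻¹ = y
      rw [show t * (t * y * t⁻¹) * t⁻¹ = t ^ 2 * y * (t ^ 2)⁻¹ by rw [pow_two]; group, h2]; group))
  exact congrArg Subtype.val (congrFun k ⟨x, hx⟩)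

theorem u_zp {x : S} (hz : orderOf z = 7) (hx : x ∈ zpowers z) (x1 : x ≠ 1) : zpowers x = zpowers z :=
  BG.zpowers_eq_of_prime (by rw [Nat.card_zpowers, hz]; norm_num) hx x1

omit [Finite S] in
theorem NA.u_cen (hP : NA P z) {c g : S} (hc : c ∈ zpowers z) (hg : g ∈ P) : Commute c g := by
  obtain ⟨k, rfl⟩ := mem_zpowers_iff.1 hc
  exact Commute.zpow_left (mem_C.1 (hP.cen hg)) k

theorem NA.u_ne (hP : NA P z) (hD : D ∈ DD P) {x y : S} (hx : x ∈ D) (hxz : x ∉ zpowers z) (hy : y ∈ P) (hyD : y ∉ D) :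
    x * y * x⁻¹ * y⁻¹ ≠ 1 := fun e => hyD ((hP.eq_inf hD hx hxz).ge ⟨hy, mem_C.2 (by
  rwa [mul_inv_eq_one, mul_inv_eq_iff_eq_mul] at e)⟩)

theorem NA.u_out (hP : NA P z) (hD : D ∈ DD P) : ∃ x ∈ D, x ∉ zpowers z :=
  let ⟨x, hx⟩ := Finset.card_pos.1 (show 0 < (out z D).card by rw [hP.card_out hD]; decide); ⟨x, mem_out.1 hx⟩

omit [Finite S] in
theorem u_one {c : S} {k : ℕ} (h7 : c ^ 7 = 1) (hk : c ^ k = 1) (co : Nat.gcd 7 k = 1) : c = 1 := by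
  rw [← pow_one c, ← co, pow_gcd_eq_one]
  exact ⟨h7, hk⟩

theorem NA.u_cls (hP : NA P z) {x c : S} (hx : x ∈ P) (hxz : x ∉ zpowers z) (hc : c ∈ zpowers z) :
    ∃ g ∈ P, g * x * g⁻¹ = c * x := by
  obtain ⟨a, ha, n⟩ : ∃ a ∈ P, a ∉ C x := by
    by_contra! q
    exact hxz (hP.cen_mem hx q)
  have m := hP.comm_mem ha hx
  obtain ⟨w, hw⟩ : ∃ w, w = a * x * a⁻¹ * x⁻¹ := ⟨_, rfl⟩
  rw [← hw] at m
  have w1 : w ≠ 1 := fun e => n (mem_C'.2 (by rwa [e, eq_comm, mul_inv_eq_one] at hw))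
  obtain ⟨k, rfl⟩ := mem_powers_iff_mem_zpowers.2 ((u_zp hP.ord m w1).ge hc)
  refine ⟨a ^ k, pow_mem ha k, ?_⟩
  induction k with
  | zero => simp
  | succ k ih =>
    have e : a * x * a⁻¹ = w * x := by rw [hw, inv_mul_cancel_right]
    calc a ^ (k + 1) * x * (a ^ (k + 1))⁻¹ = a ^ k * (a * x * a⁻¹) * (a ^ k)⁻¹ := by rw [pow_succ]; group
      _ = w * (a ^ k * x * (a ^ k)⁻¹) := by rw [e, ← mul_assoc, ← (hP.u_cen m (pow_mem ha k)).eq]; group
      _ = w ^ (k + 1) * x := by rw [ih (pow_mem m k), pow_succ']; group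

theorem NA.u_pl (hP : NA P z) (hD : D ∈ DD P) {s : S} (hsD : s ∈ NS D) (hz : s ∈ C z) (h3 : orderOf s = 3) :
    s ∈ CS D ∨ ∃ x ∈ D, x ∉ zpowers z ∧ (s * x * s⁻¹ = x ^ 2 ∨ s * x * s⁻¹ = x ^ 4) := by
  obtain ⟨x, hx, hxz⟩ := hP.u_out hD
  have xP := (mem_DD.1 hD).1 hx
  have c : Commute z x := hP.u_cen (mem_zpowers z) xP
  have nz : zpowers x ≤ NS (zpowers z) := zpowers_le.2 (C_le_NS_zp z (hP.cen xP))
  have dec : ∀ y ∈ D, ∃ k < 7, ∃ j < 7, x ^ k * z ^ j = y := fun y hy => by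
    obtain ⟨_, hi, _, hj, rfl⟩ := (BG.mem_sup_right_norm nz).1 ((hP.eq_sup hD hx hxz).le hy)
    obtain ⟨i, rfl⟩ := mem_powers_iff_mem_zpowers.2 hi
    obtain ⟨j, rfl⟩ := mem_powers_iff_mem_zpowers.2 hj
    refine ⟨i % 7, Nat.mod_lt _ (by decide), j % 7, Nat.mod_lt _ (by decide), ?_⟩
    rw [← pow_eq_pow_mod i (hP.ex x xP), ← pow_eq_pow_mod j (hP.ex z hP.mem)]
  obtain ⟨k, hk, j, hj, e⟩ := dec _ (conj_mem hsD hx)
  obtain ⟨f, hf⟩ : ∃ f : MulAut S, f = MulAut.conj s := ⟨_, rfl⟩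
  have fz : f z = z := hf ▸ mem_C'.1 hz
  have fx : f x = x ^ k * z ^ j := hf ▸ e.symm
  have ff : ∀ a b : ℕ, f (x ^ a * z ^ b) = x ^ (k * a) * z ^ (j * a + b) := fun a b => by
    rw [map_mul, map_pow, map_pow, fz, fx, (c.symm.pow_pow k j).mul_pow, ← pow_mul, ← pow_mul, pow_add, mul_assoc]
  have f3 : f (f (f x)) = x := by
    have : f * f * f = 1 := by rw [hf, ← map_mul, ← map_mul, ← pow_three', ← h3, pow_orderOf_eq_one, map_one]
    exact DFunLike.congr_fun this x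
  rw [fx, ff, ff] at f3
  have x7 := hP.ex x xP
  have ox : orderOf x = 7 := haveI : Fact (Nat.Prime 7) := ⟨by norm_num⟩; orderOf_eq_prime x7 fun q => hxz (q ▸ one_mem _)
  have d : ¬ (k * (k * k) + 6).gcd 7 = 1 := fun q => by
    refine hxz (zpowers_le.2 ?_ (mem_zpowers_pow_iff.2 (ox ▸ q)))
    have : x ^ (k * (k * k) + 6) * z ^ (j * (k * k) + (j * k + j)) = 1 := by
      rw [pow_add, mul_assoc, ← (c.pow_pow _ 6).eq, ← mul_assoc, f3, ← pow_succ', x7]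
    rw [eq_inv_of_mul_eq_one_left this]
    exact inv_mem (pow_mem (mem_zpowers z) _)
  have o : ∀ a, x * z ^ a ∈ D ∧ x * z ^ a ∉ zpowers z := fun a => ⟨mul_mem hx (pow_mem (hP.z_mem hD) a), fun q =>
    hxz (by simpa using mul_mem q (inv_mem (pow_mem (mem_zpowers z) a)))⟩
  have g : ∀ a, j + a ≡ a * k [MOD 7] → s * (x * z ^ a) * s⁻¹ = (x * z ^ a) ^ k := fun a ha => by
    have := ff 1 a
    rw [pow_one, hf, MulAut.conj_apply, mul_one, mul_one] at this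
    rw [this, (c.symm.pow_right a).mul_pow, ← pow_mul, (pow_eq_pow_iff_modEq (x := z)).2 (hP.ord ▸ ha)]
  obtain rfl | rfl | rfl : k = 1 ∨ k = 2 ∨ k = 4 := by interval_cases k <;> simp_all
  · left
    have j0 : z ^ j = 1 := by
      refine u_one (k := 3) (by rw [← pow_mul, mul_comm, pow_mul, hP.ex z hP.mem, one_pow]) ?_ rfl
      simp only [mul_one, pow_one, mul_eq_left] at f3
      rw [← pow_mul, ← f3]; congr 1; ring
    intro y hy
    obtain ⟨a, -, b, -, rfl⟩ := dec y hy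
    have := ff a b
    rw [one_mul, pow_add, pow_mul, j0, one_pow, one_mul, hf, MulAut.conj_apply, mul_inv_eq_iff_eq_mul] at this
    exact this.symm
  · exact .inr ⟨_, (o j).1, (o j).2, .inl (g j (by rw [mul_two]))⟩
  · exact .inr ⟨_, (o (5 * j)).1, (o _).2, .inr (g _ (by unfold Nat.ModEq; omega))⟩

/-- A fixed point free involutory automorphism forces `P` abelian. -/
theorem NA.inv_fix (hP : NA P z) {t : S} (ht : t ∈ NS P) (h2 : t ^ 2 = 1) :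
    ∃ x ∈ P, x ≠ 1 ∧ t ∈ C x := by
  by_contra! q
  have k := fun x hx => u_inv ht h2 (fun x hx m => by_contra fun n => q x hx n m) (x := x) hx
  obtain ⟨a, ha, b, hb, n⟩ := hP.nab
  refine n (inv_injective ?_)
  rw [← k _ (mul_mem ha hb), mul_inv_rev, ← k a ha, ← k b hb]; group

theorem NA.inv_z (hP : NA P z) {t : S} (ht : t ∈ NS P) (h2 : t ^ 2 = 1) (hz : t ∉ C z) :
    t * z * t⁻¹ = z⁻¹ := by
  exact u_inv (hP.NS_le ht) h2 (fun x hx m => by_contra fun n => hz (C_eq_of_zp (u_zp hP.ord hx n) ▸ m)) (mem_zpowers z)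

/-- `t` is fixed point free on `D` and `E`, so inverts `x ∈ D`, `y ∈ E` outside `⟨z⟩`; `1 ≠ [x, y] ∈ ⟨z⟩` is
fixed by `t` (`[x⁻¹, y⁻¹]` is conjugate to `[x, y]`) and inverted by `t`. -/
theorem NA.two_inv (hP : NA P z) {t : S} (ht : t ∈ NS P) (h2 : t ^ 2 = 1) (hz : t ∉ C z)
    {E : Subgroup S} (hD : D ∈ DD P) (hE : E ∈ DD P) (hne : D ≠ E) (htD : t ∈ NS D) (htE : t ∈ NS E) :
    ∃ x, (x ∈ D ∨ x ∈ E) ∧ x ∉ zpowers z ∧ t ∈ C x := by
  by_contra! q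
  have k : ∀ x, x ∈ D ∨ x ∈ E → t ∈ C x → x = 1 := fun x hx m => by_contra fun n =>
    hz (C_eq_of_zp (u_zp hP.ord (by_contra fun o => q x hx o m) n) ▸ m)
  have kD := fun x hx => u_inv htD h2 (fun x hx => k x (.inl hx)) (x := x) hx
  have kE := fun x hx => u_inv htE h2 (fun x hx => k x (.inr hx)) (x := x) hx
  obtain ⟨x, hx, hxz⟩ := hP.u_out hD
  obtain ⟨y, hy, hyD⟩ : ∃ y ∈ E, y ∉ D := by
    by_contra! r
    exact hne (BG.eq_of_le_of_card_le r (by rw [(mem_DD.1 hD).2, (mem_DD.1 hE).2])).symm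
  have xP := (mem_DD.1 hD).1 hx
  have yP := (mem_DD.1 hE).1 hy
  have m := hP.comm_mem xP yP
  refine hP.u_ne hD hx hxz yP hyD (u_one (k := 2) (hP.ex _ (zpowers_le.2 hP.mem m)) ?_ rfl)
  have e := kD _ (zpowers_le.2 (hP.z_mem hD) m)
  have e2 : t * (x * y * x⁻¹ * y⁻¹) * t⁻¹ = (x * y)⁻¹ * (x * y * x⁻¹ * y⁻¹ * (x * y)) := by
    calc _ = t * x * t⁻¹ * (t * y * t⁻¹) * (t * x * t⁻¹)⁻¹ * (t * y * t⁻¹)⁻¹ := by group
      _ = _ := by rw [kD x hx, kE y hy]; group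
  rw [e2, (hP.u_cen m (mul_mem xP yP)).eq, inv_mul_cancel_left] at e
  rw [pow_two, ← eq_inv_iff_mul_eq_one, ← e]

/-- `[x, y] ≠ 1` generates `⟨z⟩`, and `t` fixes it since `t y t⁻¹ = d y`, `d ∈ D` commuting with `x`. -/
theorem NA.inv_quot (hP : NA P z) (hD : D ∈ DD P) {t x y : S} (hx : x ∈ D) (hxz : x ∉ zpowers z)
    (htx : t ∈ C x) (hy : y ∈ P) (hyD : y ∉ D) (hc : t * y * t⁻¹ * y⁻¹ ∈ D) : t ∈ C z := by
  have xP := (mem_DD.1 hD).1 hx
  have m := hP.comm_mem xP hy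
  rw [← C_eq_of_zp (u_zp hP.ord m (hP.u_ne hD hx hxz hy hyD)), mem_C']
  obtain ⟨d, hd⟩ : ∃ d, d = t * y * t⁻¹ * y⁻¹ := ⟨_, rfl⟩
  rw [← hd] at hc
  have e : t * y * t⁻¹ = d * y := by rw [hd, inv_mul_cancel_right]
  have c : x * d = d * x := mem_C.1 ((hP.eq_inf hD hx hxz).le hc).2
  calc _ = t * x * t⁻¹ * (t * y * t⁻¹) * (t * x * t⁻¹)⁻¹ * (t * y * t⁻¹)⁻¹ := by group
    _ = d * (x * y * x⁻¹ * y⁻¹) * d⁻¹ := by rw [mem_C'.1 htx, e, ← mul_assoc x d, c]; group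
    _ = _ := by rw [← (hP.u_cen m ((mem_DD.1 hD).1 hc)).eq, mul_inv_cancel_right]

/-- `Q` moves `z` to every `z y^i`, `P` moves `z y^i` (`i ≠ 0`) to every `z^a y^i`, `Q` moves `z^a y^i` to
`z^a`. -/
theorem NA.spec (hP : NA P z) (hD : D ∈ DD P) {Q : Subgroup S} {y : S} (hQ : NA Q y) (hDQ : D ≤ Q)
    (hy : y ∉ zpowers z) {u : S} (hu : u ∈ zpowers z) (h1 : u ≠ 1) : ∃ g ∈ P ⊔ Q, g * z * g⁻¹ = u := by
  have hD' : D ∈ DD Q := mem_DD.2 ⟨hDQ, (mem_DD.1 hD).2⟩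
  have zD := hP.z_mem hD
  have yP := (mem_DD.1 hD).1 (hQ.z_mem hD')
  have n : ∀ v ∈ zpowers z, v ≠ 1 → v ∉ zpowers y := fun v hv v1 m =>
    hy (((u_zp hQ.ord m v1).symm.trans (u_zp hP.ord hv v1)).le (mem_zpowers y))
  have z1 : z ≠ 1 := fun e => by simpa [e] using hP.ord
  obtain ⟨a, ha, ea⟩ := hQ.u_cls (hDQ zD) (n z (mem_zpowers z) z1) (mem_zpowers y)
  obtain ⟨b, hb, eb⟩ := hP.u_cls (mul_mem yP hP.mem) (fun m => hy (by simpa using mul_mem m (inv_mem (mem_zpowers z))))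
    (mul_mem hu (inv_mem (mem_zpowers z)))
  obtain ⟨c, hc, ec⟩ := hQ.u_cls (hDQ (zpowers_le.2 zD hu)) (n u hu h1) (mem_zpowers y)
  refine ⟨c⁻¹ * b * a, mul_mem (mul_mem (inv_mem (mem_sup_right hc)) (mem_sup_left hb)) (mem_sup_right ha), ?_⟩
  calc _ = c⁻¹ * (b * (a * z * a⁻¹) * b⁻¹) * c := by group
    _ = c⁻¹ * (c * u * c⁻¹) * c := by
      rw [ea, eb, ec, ← (hP.u_cen (mem_zpowers z) yP).eq, mul_assoc u, inv_mul_cancel_left, (hP.u_cen hu yP).eq]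
    _ = u := by group

/-- `s` fixes one of the `49` subgroups `⟨x⟩` of order `7` outside `D`, and one of the `7` subgroups
`⟨y⟩ ≠ ⟨z⟩` of `D`; if `s` centralizes `x`, then `[x, y]` fixed gives `s ∈ C y`, and `P = ⟨z, y, x⟩`. -/
theorem NA.three_dich (hP : NA P z) (hD : D ∈ DD P) {s : S} (hs : s ∈ NS P) (hsD : s ∈ NS D)
    (hz : s ∈ C z) (h3 : orderOf s = 3) :
    s ∈ CS P ∨ ∃ x ∈ P, x ∉ D ∧ (s * x * s⁻¹ = x ^ 2 ∨ s * x * s⁻¹ = x ^ 4) := by
  classical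
  haveI : Fact (Nat.Prime 3) := ⟨Nat.prime_three⟩
  let f : Function.End (DD P) := fun E => ⟨cj s E, mem_DD.2 ⟨
    (cj_le_cj.2 (mem_DD.1 E.2).1).trans (cj_eq_iff.2 hs).le, by rw [card_cj, (mem_DD.1 E.2).2]⟩⟩
  have f3 : f ^ 3 ^ 1 = 1 := funext fun E => Subtype.ext (by
    change cj s (cj s (cj s E)) = E
    rw [← cj_mul, ← cj_mul, ← pow_three', ← h3, pow_orderOf_eq_one, cj_one])
  have k := Equiv.Perm.card_fixedPoints_modEq f3
  rw [Fintype.card_coe, hP.card_DD] at k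
  obtain ⟨⟨⟨E, hE⟩, fE⟩, ne⟩ : ∃ E : f.fixedPoints, E ≠ ⟨⟨D, hD⟩, Subtype.ext (cj_eq_iff.2 hsD)⟩ := by
    by_contra! q
    rw [Fintype.card_eq_one_iff.2 ⟨_, q⟩] at k
    exact absurd k (by decide)
  have sE : s ∈ NS E := cj_eq_iff.1 (congrArg Subtype.val fE)
  have o : ∀ x ∈ E, x ∉ zpowers z → x ∉ D := fun x hx hxz m =>
    ne (Subtype.ext (Subtype.ext ((hP.eq_inf hE hx hxz).trans (hP.eq_inf hD m hxz).symm)))
  rcases hP.u_pl hE sE hz h3 with c | ⟨x, hx, hxz, e⟩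
  swap
  · exact .inr ⟨x, (mem_DD.1 hE).1 hx, o x hx hxz, e⟩
  obtain ⟨x, hx, hxz⟩ := hP.u_out hE
  have xP := (mem_DD.1 hE).1 hx
  have sx : x * s = s * x := c x hx
  left
  rcases hP.u_pl hD hsD hz h3 with c' | ⟨y, hy, hyz, e⟩
  · rw [hP.sup_eq hD xP (o x hx hxz)]
    exact (BG.cent_sup _ _).ge ⟨c', (BG.cent_zpowers x).ge (BG.mem_cent1.2 sx.symm)⟩
  exfalso
  have yP := (mem_DD.1 hD).1 hy
  have m := hP.comm_mem xP yP
  have n := hP.u_ne hE hx hxz yP fun q => o y q hyz hy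
  obtain ⟨w, hw⟩ : ∃ w, w = x * y * x⁻¹ * y⁻¹ := ⟨_, rfl⟩
  rw [← hw] at m n
  have sw : s * w * s⁻¹ = w := mem_C'.1 (C_eq_of_zp (u_zp hP.ord m n) ▸ hz)
  have g : ∀ k : ℕ, s * y * s⁻¹ = y ^ (k + 1) → w ^ k = 1 := fun k e => by
    have e1 : x * y * x⁻¹ = w * y := by rw [hw, inv_mul_cancel_right]
    have : w = w ^ (k + 1) := by
      calc w = s * x * s⁻¹ * (s * y * s⁻¹) * (s * x * s⁻¹)⁻¹ * (s * y * s⁻¹)⁻¹ := by rw [← sw, hw]; group
        _ = w ^ (k + 1) := by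
          rw [← sx, mul_inv_cancel_right, e, ← conj_pow, e1, (hP.u_cen m yP).mul_pow, mul_inv_cancel_right]
    rw [pow_succ] at this
    exact mul_eq_right.1 this.symm
  have w7 := hP.ex w (zpowers_le.2 hP.mem m)
  rcases e with e | e
  exacts [n (u_one w7 (g 1 e) rfl), n (u_one w7 (g 3 e) rfl)]

/-- `N(P)` acts on the six non-identity elements of `⟨z⟩`. -/
theorem NA.exists_d (hP : NA P z) :
    ∃ d, d ∣ 6 ∧ Nat.card (NS P) = d * Nat.card (NS P ⊓ C z : Subgroup S) ∧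
      ((∀ u ∈ zpowers z, u ≠ 1 → ∃ g ∈ NS P, g * z * g⁻¹ = u) → d = 6) := by
  let φ : NS P →* MulAut (zpowers z) := (zpowers z).normalizerMonoidHom.comp (inclusion hP.NS_le)
  have hφ : ∀ g : NS P, (φ g ⟨z, mem_zpowers z⟩ : S) = g * z * (g : S)⁻¹ := fun _ => rfl
  have k : φ.ker = (C z).subgroupOf (NS P) := by
    ext g
    rw [MonoidHom.mem_ker, mem_subgroupOf, mem_C']
    refine ⟨fun e => by rw [← hφ, e]; rfl, fun e => MulEquiv.ext fun ⟨y, hy⟩ => Subtype.ext ?_⟩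
    obtain ⟨i, rfl⟩ := mem_zpowers_iff.1 hy
    change g * z ^ i * (g : S)⁻¹ = z ^ i
    rw [← conj_zpow, e]
  have d : Nat.card φ.range ∣ 6 := by
    have := card_subgroup_dvd_card φ.range
    rwa [IsCyclic.card_mulAut, Nat.card_zpowers, hP.ord] at this
  refine ⟨Nat.card φ.range, d, ?_, fun h => (Nat.le_of_dvd (by decide) d).antisymm ?_⟩
  · rw [← index_ker, k, ← BG.card_mul_relIndex (inf_le_left : NS P ⊓ C z ≤ _), mul_comm, inf_relIndex_left]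
    rfl
  · have n : ∀ i : Fin 6, z ^ (i.1 + 1) ≠ 1 := fun i => pow_ne_one_of_lt_orderOf (by omega) (by rw [hP.ord]; omega)
    choose g hg eg using fun i : Fin 6 => h _ (pow_mem (mem_zpowers z) (i.1 + 1)) (n i)
    have := Nat.card_le_card_of_injective (fun i : Fin 6 => (⟨φ ⟨g i, hg i⟩, _, rfl⟩ : φ.range)) fun i j e => by
      have e1 : φ ⟨g i, hg i⟩ = φ ⟨g j, hg j⟩ := congrArg Subtype.val e
      have e2 := (hφ ⟨g i, hg i⟩).symm.trans (e1 ▸ hφ ⟨g j, hg j⟩)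
      simp only [eg] at e2
      have := pow_injOn_Iio_orderOf (by rw [hP.ord]; simp; omega) (by rw [hP.ord]; simp; omega) e2
      exact Fin.ext (by omega)
    simpa using this

/-- `V` Sylow of order `8`, of exponent `2`. Normal: an element of order `3` fixes one of `7` involutions.
Otherwise `V ⊓ V'` has order `4` and is centralized by `⟨V, V'⟩ = H`. -/
theorem no24 {H : Type*} [Group H] (hc : Nat.card H = 24) :
    ∃ g : H, 4 ∣ orderOf g ∨ 6 ∣ orderOf g := by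
  haveI : Finite H := Nat.finite_of_card_ne_zero (by omega)
  haveI := Fact.mk Nat.prime_two
  by_contra! q
  have n6 : 6 ∉ Spec.sp H := fun ⟨g, e⟩ => (q g).2 (e ▸ dvd_rfl)
  obtain ⟨V⟩ : Nonempty (Sylow 2 H) := inferInstance
  have cV : Nat.card V = 2 ^ 3 := SPL.syl_card (m := 3) (BG.Syl.of_sylow_top V) (by rw [card_top, hc]; rfl) (by decide)
  have ex : ∀ x ∈ (V : Subgroup H), x * x = 1 := fun x hx => by
    obtain ⟨k, hk⟩ := IsPGroup.iff_orderOf.1 V.2 ⟨x, hx⟩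
    rw [orderOf_mk] at hk
    rw [← pow_two, ← orderOf_dvd_iff_pow_eq_one, hk]
    rcases k with _ | _ | k
    exacts [by decide, by decide, absurd (hk ▸ ⟨2 ^ k, by ring⟩) (q x).1]
  have ab : (V : Subgroup H) ≤ CS V := fun x hx y hy => by
    rw [← inv_eq_of_mul_eq_one_right (ex _ (mul_mem hy hx)), mul_inv_rev, inv_eq_of_mul_eq_one_right (ex x hx),
      inv_eq_of_mul_eq_one_right (ex y hy)]
  by_cases d : 3 ∣ Nat.card (NS (V : Subgroup H))
  · have := SPL.pow_dvd_norm (k := 1) Nat.prime_two Nat.prime_three (by decide) n6 V.2 d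
    rw [cV] at this
    exact absurd this (by decide)
  have e : (V : Subgroup H) = NS V := BG.eq_of_le_of_card_le le_normalizer (by
    have := card_subgroup_dvd_card (NS (V : Subgroup H))
    rw [hc] at this
    exact cV ▸ Nat.le_of_dvd (by decide) (((Nat.Prime.coprime_iff_not_dvd Nat.prime_three).2 d).symm.dvd_of_dvd_mul_left
      (show _ ∣ 3 * 2 ^ 3 from this)))
  have c := (MonoidHom.ker_transferSylow_isComplement' V (e.ge.trans ab)).card_mul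
  rw [cV, hc] at c
  have c3 : Nat.card (MonoidHom.transferSylow V (e.ge.trans ab)).ker = 3 ^ 1 := by omega
  have := SPL.pow_dvd_norm (k := 3) Nat.prime_three Nat.prime_two (by decide) n6 (IsPGroup.of_card c3)
    (by rw [normalizer_eq_top, card_top, hc]; decide)
  rw [c3] at this
  exact absurd this (by decide)

/-- S0666 with the Frobenius group `⟨x, s⟩` of order `21` (or directly: `1 + g + g² = 0` on `U` for
`g = s, x s`). -/
theorem f21 {U : Subgroup S} (h2 : ∀ u ∈ U, u ^ 2 = 1) {x s : S} (hx : orderOf x = 7)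
    (hs : orderOf s = 3) (hxU : x ∈ NS U) (hsU : s ∈ NS U)
    (hc : s * x * s⁻¹ = x ^ 2 ∨ s * x * s⁻¹ = x ^ 4) (h1 : U ⊓ C x = ⊥) (h3 : U ⊓ C s = ⊥) : U = ⊥ := by
  haveI := Fact.mk Nat.prime_two
  have ab : U ≤ CS U := fun a ha b hb => by
    have i : ∀ u ∈ U, u⁻¹ = u := fun u hu => inv_eq_of_mul_eq_one_right (pow_two u ▸ h2 u hu)
    rw [← i _ (mul_mem hb ha), mul_inv_rev, i a ha, i b hb]
  have x1 : x ≠ 1 := fun e => by simp [e] at hx
  have x7 : x ^ 7 = 1 := hx ▸ pow_orderOf_eq_one x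
  have nz : s ∈ NS (zpowers x) := by
    rw [← cj_eq_iff, cj_zp]
    rcases hc with e | e <;> rw [e] <;> exact u_zp hx (pow_mem (mem_zpowers x) _) (pow_ne_one_of_lt_orderOf (by decide) (by omega))
  have sr : BG.SemiReg (zpowers x) (zpowers s) := BG.semiReg_prime (by rw [Nat.card_zpowers, hs]; norm_num)
    (BG.inf_eq_bot_of_prime (by rw [Nat.card_zpowers, hx]; norm_num) fun l => by
      have e : s * x * s⁻¹ = x := by rw [l (mem_zpowers x) s (mem_zpowers s), mul_inv_cancel_right]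
      rw [e] at hc
      rcases hc with e | e
      exacts [x1 (u_one (k := 1) x7 (mul_eq_right.1 (pow_succ x 1 ▸ e).symm) rfl),
        x1 (u_one (k := 3) x7 (mul_eq_right.1 (pow_succ x 3 ▸ e).symm) rfl)])
  have pg : IsPGroup 2 U := fun u => ⟨1, Subtype.ext (h2 u u.2)⟩
  obtain ⟨k, hk⟩ := IsPGroup.iff_card.1 pg
  have l := Coprime.le_centralizer_of_frobenius_abelian (zpowers_le.2 nz) sr (zpowers_le.2 hxU) (zpowers_le.2 hsU)
    (by rw [Nat.card_zpowers, hx, hk]; exact Nat.Coprime.pow_right k (by decide)) (BG.abelian_iff.2 ab)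
    (by rw [BG.cent_zpowers]; exact h3)
  rw [← h1, eq_comm, inf_eq_left]
  exact BG.le_cent1_iff.2 (l (mem_zpowers x))

end Cfsg.Lib.SPO.He
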