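import Cfsg.Agent.Lib.SPO.LDef
import Cfsg.Agent.Lib.GLC.Spec2
import Cfsg.Agent.Lib.GLC.SpAdj

/-!
# Orders of real endomorphisms: tori and unipotent parts
-/

set_option autoImplicit false

namespace Cfsg.Lib.SPO

open Module Polynomial Cfsg.Lib.GLC Cfsg.Lib.Symp

theorem eta_hyp (k : ℕ) : (Odd k ∧ eta k = k) ∨ (Even k ∧ 2 * eta k = k) :=
  (eta_spec k).imp (fun h => ⟨h.1, h.2.1⟩) fun h => ⟨h.1, h.2.1⟩

theorem eta_pos {k : ℕ} (h : k ≠ 0) : 0 < eta k := by rcases eta_hyp k with h | h <;> omega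

theorem eq_tor {q r N : ℕ} (hq : 0 < q) (hr : r.Prime) (h2 : r ≠ 2) (h0 : eo q r ≠ 0)
    (hN : N = q ^ eta (eo q r) + 1 ∨ N = q ^ eta (eo q r) - 1) (h : r ∣ N) :
    N = tor q (eta (eo q r)) (sg (eo q r)) := by
  rcases eta_spec (eo q r) with ⟨-, h3, h4⟩ | ⟨-, h3, h4⟩
  · rw [h4, tor_one]
    refine hN.resolve_left fun e => ((dvd_add_one_iff hq hr h2).1 (e ▸ h)).2 ?_
    rw [h3]
  · rw [h4, tor_neg]
    refine hN.resolve_right fun e => ?_
    have := Nat.le_of_dvd (eta_pos h0) ((dvd_pow_sub_one_iff hq).1 (e ▸ h))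
    change eo q r ≤ _ at this
    omega

theorem dvd_tor_self {q r : ℕ} (hq : 0 < q) (hr : r.Prime) (h2 : r ≠ 2) (h0 : eo q r ≠ 0) :
    r ∣ tor q (eta (eo q r)) (sg (eo q r)) := by
  rcases eta_spec (eo q r) with ⟨-, h3, h4⟩ | ⟨-, h3, h4⟩
  · rw [h4, tor_one, dvd_pow_sub_one_iff hq, h3]
  · rw [h4, tor_neg, dvd_add_one_iff hq hr h2, h3]
    refine ⟨dvd_rfl, fun e => ?_⟩
    have := Nat.le_of_dvd (eta_pos h0) e
    change eo q r ≤ _ at this
    omega

theorem tor_eq_tN (q j : ℕ) (δ : ℤ) : tor q j δ = tN q (j, decide (δ = 1)) := by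
  simp [tor, tN]

theorem pow_dvd_lcm {r a x y : ℕ} (hr : r.Prime) (hx : x ≠ 0) (hy : y ≠ 0) (h : r ^ a ∣ x.lcm y) :
    r ^ a ∣ x ∨ r ^ a ∣ y := by
  rw [hr.pow_dvd_iff_le_factorization (Nat.lcm_ne_zero hx hy), Nat.factorization_lcm hx hy,
    Finsupp.sup_apply, le_sup_iff] at h
  rwa [hr.pow_dvd_iff_le_factorization hx, hr.pow_dvd_iff_le_factorization hy]

variable {F V : Type*} [Field F] [Finite F] [AddCommGroup V] [Module F V] [Module.Finite F V]
  {f : End F V} (p : ℕ) [hp : Fact p.Prime] [CharP F p] {r : ℕ}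

theorem eo_ne_zero (hr : r.Prime) (hrp : r ≠ p) : eo (Nat.card F) r ≠ 0 :=
  haveI := Fact.mk hr
  (Homocyc.orderOf_pos_of (not_dvd_card p hr hrp)).ne'

theorem op_of (hr : r.Prime) (hrp : r ≠ p) (h2 : r ≠ 2) :
    OP F r (eo (Nat.card F) r) (2 * eta (eo (Nat.card F) r)) := by
  refine ⟨hr, hr.odd_of_ne_two h2, mt (CharP.cast_eq_zero_iff F p r).1
    (mt (Nat.prime_dvd_prime_iff_eq hp.out hr).1 hrp.symm), rfl, ?_⟩
  rcases eta_hyp (eo (Nat.card F) r) with h | h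
  · rw [if_neg (Nat.not_even_iff_odd.2 h.1), h.2]
  · rw [if_pos h.1, h.2]

/-- A real automorphism of a space of the minimal dimension for `r` lies in a cyclic torus. -/
theorem cl_torus (h : Cl (typ f)) (hf : IsUnit f) (hr : r.Prime) (hrp : r ≠ p) (h2 : r ≠ 2)
    (hd : r ∣ orderOf f) (hV : finrank F V ≤ 2 * eta (eo (Nat.card F) r) ) :
    f ^ tor (Nat.card F) (eta (eo (Nat.card F) r)) (sg (eo (Nat.card F) r)) = 1 := by
  obtain ⟨ψ, e, h0, h9, h10, h11, h12, -⟩ := exists_block_of_prime_dvd p hf hr hrp hd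
  obtain ⟨ν, j, N, hν, -, hj, hN, h1, h3, h4⟩ := h.exists_orbit h0 h9 h10 h11
    (not_dvd_sq_of_dvd_orderOf hr h2 h12)
  have hrN := h12.trans (dvd_X_pow_sub_one_iff.1 h1)
  have h5 := Nat.le_of_dvd hj (eta_le_of_dvd (eta_hyp _) (orderOf_dvd_two_mul Nat.card_pos hN hrN))
  rw [← (blocks_typ f).finrank_eq] at h3
  have h6 := Nat.mul_le_mul_left j h10
  change eta (eo (Nat.card F) r) ≤ j at h5
  have h7 : j = eta (eo (Nat.card F) r) := by omega
  have h8 : e = 1 := by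
    by_contra
    have := Nat.mul_le_mul_left j (show 2 ≤ e by omega)
    omega
  subst h7 h8
  rw [← eq_tor Nat.card_pos hr h2 (eo_ne_zero p hr hrp) hN hrN, (blocks_typ f).pow_eq_one_iff]
  intro P hP
  obtain ⟨φ, k, g1, g2, g3, rfl⟩ := typ_pp f P hP
  rcases h4 φ k g1 g2 g3 hP with g | ⟨rfl, g⟩
  · have := Multiset.single_le_sum (fun _ _ => Nat.zero_le _) _ (Multiset.mem_map_of_mem natDegree g)
    have := (hν.1 _ g).1.natDegree_pos
    omega
  · rwa [pow_one]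

theorem exists_block_of_pow_dvd (hf : IsUnit f) (hr : r.Prime) (hrp : r ≠ p) {a : ℕ} (ha : a ≠ 0)
    (h : r ^ a ∣ orderOf f) : ∃ φ e, φ.Monic ∧ Irreducible φ ∧ 0 < e ∧ φ ^ e ∈ typ f ∧
      r ^ a ∣ orderOf (AdjoinRoot.root φ) := by
  classical
  have h0 : ∀ P ∈ typ f, orderOf (AdjoinRoot.root P) ≠ 0 := fun P hP => by
    have h1 : 0 < orderOf f := by
      haveI : Finite V := Module.finite_of_finite F
      obtain ⟨u, rfl⟩ := hf
      rw [orderOf_units]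
      haveI : Finite (End F V) := Finite.of_injective _ DFunLike.coe_injective
      exact orderOf_pos u
    exact (Nat.pos_of_dvd_of_pos (dvd_X_pow_sub_one_iff.1
      ((blocks_typ f).pow_eq_one_iff.1 (pow_orderOf_eq_one f) P hP)) h1).ne'
  obtain ⟨P, hP, h1⟩ : ∃ P ∈ typ f, r ^ a ∣ orderOf (AdjoinRoot.root P) := by
    have h2 : r ^ a ∣ (typ f).toFinset.lcm fun P => orderOf (AdjoinRoot.root P) :=
      h.trans (orderOf_dvd_of_pow_eq_one ((blocks_typ f).pow_eq_one_iff.2 fun P hP =>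
        dvd_X_pow_sub_one_iff.2 (Finset.dvd_lcm (Multiset.mem_toFinset.2 hP))))
    have key : ∀ s : Finset F[X], (∀ P ∈ s, orderOf (AdjoinRoot.root P) ≠ 0) →
        r ^ a ∣ (s.lcm fun P => orderOf (AdjoinRoot.root P)) →
        ∃ P ∈ s, r ^ a ∣ orderOf (AdjoinRoot.root P) := fun s => by
      induction s using Finset.induction_on with
      | empty => intro _ h; simp [ha, hr.ne_one] at h
      | insert P s hP ih =>
        intro g1 g2
        rw [Finset.lcm_insert] at g2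
        have g3 := g1 P (Finset.mem_insert_self _ _)
        have g4 : ∀ P ∈ s, orderOf (AdjoinRoot.root P) ≠ 0 := fun P h =>
          g1 P (Finset.mem_insert_of_mem h)
        rcases pow_dvd_lcm hr g3 (Finset.lcm_ne_zero_iff.2 g4) g2 with g | g
        · exact ⟨P, Finset.mem_insert_self _ _, g⟩
        · obtain ⟨P', g5, g6⟩ := ih g4 g
          exact ⟨P', Finset.mem_insert_of_mem g5, g6⟩
    obtain ⟨P, hP, h3⟩ := key _ (fun P hP => h0 P (Multiset.mem_toFinset.1 hP)) h2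
    exact ⟨P, Multiset.mem_toFinset.1 hP, h3⟩
  obtain ⟨φ, e, h2, h3, h4, rfl⟩ := typ_pp f P hP
  have h5 := pow_dvd_X_pow_mul p (φ := φ) (c := 1) (dvd_X_pow_sub_one_iff.2 dvd_rfl)
    (e.lt_pow_self hp.out.one_lt).le
  rw [one_pow, C_1, dvd_X_pow_sub_one_iff] at h5
  exact ⟨φ, e, h2, h3, h4, hP, (Nat.Coprime.pow a e ((Nat.coprime_primes hr hp.out).2 hrp)
    ).dvd_of_dvd_mul_right (h1.trans h5)⟩

theorem cl_rpow (h : Cl (typ f)) (hf : IsUnit f) (hr : r.Prime) (hrp : r ≠ p) {a : ℕ}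
    (hd : r ^ a ∣ orderOf f) (h2 : 2 < r ^ a) : ∃ j δ, 0 < j ∧ 2 * j ≤ finrank F V ∧
      (δ = 1 ∨ δ = -1) ∧ r ^ a ∣ tor (Nat.card F) j δ := by
  obtain ⟨ψ, e, h0, h9, h10, h11, h12⟩ := exists_block_of_pow_dvd p hf hr hrp
    (by rintro rfl; simp at h2) hd
  obtain ⟨ν, j, N, -, -, hj, hN, h1, h3, -⟩ := h.exists_orbit h0 h9 h10 h11 fun e => by
    have := Nat.le_of_dvd two_pos (h12.trans (dvd_X_pow_sub_one_iff.1 e)); omega
  have hrN := h12.trans (dvd_X_pow_sub_one_iff.1 h1)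
  rw [← (blocks_typ f).finrank_eq] at h3
  have h6 := Nat.mul_le_mul_left j h10
  rcases hN with rfl | rfl
  · exact ⟨j, -1, hj, by omega, .inr rfl, hrN⟩
  · exact ⟨j, 1, hj, by omega, .inl rfl, hrN⟩

omit [Finite F] in
/-- The Jordan type of an element of order `p ^ (a + 1)`. -/
theorem exists_jt {a : ℕ} (h : orderOf f = p ^ (a + 1)) : ∃ d : Multiset ℕ, typ f = jt 1 d ∧
    (∀ e ∈ d, 0 < e) ∧ ∃ e ∈ d, p ^ a < e := by
  obtain ⟨d, ν, h1, h2, h3⟩ := exists_split (typ_pp f) (1 : F)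
  have h4 : ∀ k, (X : F[X]) ^ p ^ k - 1 = (X - C 1) ^ p ^ k := fun k => by
    rw [sub_pow_char_pow, C_1, one_pow]
  obtain rfl : ν = 0 := Multiset.eq_zero_of_forall_notMem fun P hP => by
    have g1 : P ∈ typ f := h1 ▸ Multiset.mem_add.2 (.inr hP)
    have g2 := (blocks_typ f).pow_eq_one_iff.1 (pow_orderOf_eq_one f) P g1
    rw [h, h4] at g2
    have g3 := ((isCoprime_of_eval (h3 P hP)).pow_right (n := p ^ (a + 1))).isUnit_of_dvd' dvd_rfl g2
    exact (typ_pp f P g1).natDegree_pos.ne' (natDegree_eq_zero_of_isUnit g3)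
  rw [add_zero] at h1
  refine ⟨d, h1, h2, ?_⟩
  by_contra! h5
  have h6 : f ^ p ^ a = 1 := (blocks_typ f).pow_eq_one_iff.2 fun P hP => by
    rw [h1, jt] at hP
    obtain ⟨e, he, rfl⟩ := Multiset.mem_map.1 hP
    rw [h4]
    exact pow_dvd_pow _ (h5 e he)
  have := Nat.le_of_dvd (pow_pos hp.out.pos _) (h ▸ orderOf_dvd_of_pow_eq_one h6)
  exact absurd this (not_le.2 (Nat.pow_lt_pow_right hp.out.one_lt a.lt_succ_self))

end Cfsg.Lib.SPO
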