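import Cfsg.Agent.Lib.SPO.LE
import Cfsg.Agent.Lib.Orth.Plane

/-!
# Element orders of `PΩ(Q)`: splitting off the support of an element of large prime order
-/

set_option autoImplicit false

namespace Cfsg.Lib.SPO

open Module Cfsg.Lib.GLC Cfsg.Lib.Symp Cfsg.Lib.Orth
open QuadraticMap (polar polarBilin)

universe w

variable {F : Type w} {V : Type*} [Field F] [Finite F] [AddCommGroup V] [Module F V]
  [Module.Finite F V] {Q : QuadraticForm F V} (p : ℕ) [hp : Fact p.Prime] [CharP F p] {r k : ℕ}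

omit [Finite F] [Module.Finite F V] in
theorem orderOf_coe (x : O Q) : orderOf (x.1 : End F V) = orderOf x := by
  refine (orderOf_eq_orderOf_iff).2 fun n => ?_
  rw [← O.coe_pow_end]
  exact ⟨fun h => O.ext (LinearMap.congr_fun h), fun h => by rw [h]; rfl⟩

omit [Finite F] in
theorem cl_O (hQ : ND Q) (x : O Q) : Cl (typ (x.1 : End F V)) :=
  cl_typ_of_form hQ (O.oE hQ x).isUnit fun u v => O.map_polar x u v

theorem sg_eq (i : ℕ) : (((-1 : ℤˣ) ^ (i + 1) : ℤˣ) : ℤ) = sg i := by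
  rcases eta_spec i with ⟨h, -, e⟩ | ⟨h, -, e⟩
  · rw [e, h.add_one.neg_one_pow]; rfl
  · rw [e, h.add_one.neg_one_pow]; rfl

theorem fpf_dim (hQ : ND Q) (hr : r.Prime) (hrp : r ≠ p) (h2 : r ≠ 2) {x : O Q} (hx : x ^ r = 1)
    (hf : O.fix x = ⊥) : 2 * eta (eo (Nat.card F) r) ∣ finrank F V ∧
      (finrank F V = 2 * eta (eo (Nat.card F) r) → (qsg Q : ℤ) = sg (eo (Nat.card F) r)) := by
  haveI := Fact.mk hr
  have h := op_of (F := F) p hr hrp h2
  have h1 := orderOf_dvd_finrank hx (W := ⊤) (fun _ _ => trivial) (by simp [hf])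
  rw [finrank_top] at h1
  obtain ⟨j, hj⟩ := even_finrank_of_fpf hQ h.odd hx hf
  refine ⟨by rw [hj, ← two_mul, h.dvd_iff, two_mul, ← hj]; exact h1, fun e => ?_⟩
  have h3 : (x.1 : End F V) ^ r = 1 := by rw [← O.coe_pow_end, hx]; rfl
  rcases eta_spec (eo (Nat.card F) r) with ⟨g, g1, g2⟩ | ⟨g, g1, g2⟩
  · rw [h.qsg_eq (O.oE hQ x) h3 (O.fix_eq_bot_iff.1 hf) (n := 2) (by rw [e, g1]), g2,
      (Even.mul_left even_two _).neg_one_pow]; rfl
  · rw [h.qsg_eq (O.oE hQ x) h3 (O.fix_eq_bot_iff.1 hf) (n := 1) (by rw [e, g1, one_mul]), mul_one,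
      sg_eq]

/-- Splitting off the support of the `r`-part. -/
theorem exists_split_r (hQ : ND Q) (hr : r.Prime) (hrp : r ≠ p) (h2 : r ≠ 2) {g : O Q}
    (hd : r ∣ orderOf g) : ∃ (W U : Submodule F V) (S : IsOSum Q W U) (a : O (Q.restrict W))
      (b : O (Q.restrict U)) (s : ℕ), S.sumMap (a, b) = g ∧ (a ^ s) ^ r = 1 ∧ O.fix (a ^ s) = ⊥ ∧
      0 < finrank F W := by
  obtain ⟨s, hs⟩ := hd
  have h0 : orderOf (g ^ s) = r := by
    rw [orderOf_pow' _ (by rintro rfl; exact (orderOf_pos g).ne' (by simpa using hs)), hs,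
      Nat.gcd_mul_left_left, Nat.mul_div_cancel _ (Nat.pos_of_mul_pos_left (hs ▸ orderOf_pos g))]
  have hx : (g ^ s) ^ r = 1 := h0 ▸ pow_orderOf_eq_one _
  have S := O.isOSum_comm_fix (op_of (F := F) p hr hrp h2).ne hx
  obtain ⟨a, b, hab⟩ := S.exists_split (Commute.self_pow g s)
  have h1 : S.sumMap (a ^ s, b ^ s) = g ^ s := by rw [← S.sumMap_pow, hab]
  refine ⟨_, _, S, a, b, s, hab, (S.sumMap_eq_one.1 (by rw [← S.sumMap_pow, h1, hx])).1,
    (S.of_sumMap_eq h1).1, Nat.pos_of_ne_zero fun e => hr.ne_one ?_⟩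
  rw [← h0, O.comm_eq_bot_iff.1 (Submodule.finrank_eq_zero.1 e), orderOf_one]

theorem qsg_of_finrank_eq (hQ : ND Q) {W U : Submodule F V} (S : IsOSum Q W U)
    (he : Even (finrank F W)) : qsg Q = qsg (Q.restrict W) * qsg (Q.restrict U) := by
  rw [qsg_congr S.equivalent, qsg_prod_even (S.nd_left hQ) (S.nd_right hQ) he]

theorem fit_of_dvd (hQ : ND Q) (hr : r.Prime) (hrp : r ≠ p) (h2 : r ≠ 2) {g : O Q}
    (hd : r ∣ orderOf g) : 2 * eta (eo (Nat.card F) r) ≤ finrank F V ∧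
      (2 * eta (eo (Nat.card F) r) = finrank F V → (qsg Q : ℤ) = sg (eo (Nat.card F) r)) := by
  obtain ⟨W, U, S, a, b, s, -, h3, h4, h5⟩ := exists_split_r p hQ hr hrp h2 hd
  obtain ⟨h6, h7⟩ := fpf_dim p (S.nd_left hQ) hr hrp h2 h3 h4
  have h8 := Nat.le_of_dvd h5 h6
  have h9 := S.finrank_add
  refine ⟨by omega, fun e => ?_⟩
  rw [qsg_of_finrank_eq hQ S (even_iff_two_dvd.2 ((dvd_mul_right _ _).trans h6)),
    qsg_zero (Q := Q.restrict U) (by omega), mul_one]
  exact h7 (by omega)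

/-- The structure of an element of order divisible by a prime `r` of large rank. -/
theorem exists_big (hQ : ND Q) (hr : r.Prime) (hrp : r ≠ p) (h2 : r ≠ 2) {g : O Q}
    (hd : r ∣ orderOf g) (hb : finrank F V < 4 * eta (eo (Nat.card F) r)) :
    ∃ (W U : Submodule F V) (S : IsOSum Q W U) (a : O (Q.restrict W))
      (b : O (Q.restrict U)) (s : ℕ), S.sumMap (a, b) = g ∧ (a ^ s) ^ r = 1 ∧ O.fix (a ^ s) = ⊥ ∧
      finrank F W = 2 * eta (eo (Nat.card F) r) ∧
      (qsg (Q.restrict W) : ℤ) = sg (eo (Nat.card F) r) ∧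
      (qsg (Q.restrict U) : ℤ) = qsg Q * sg (eo (Nat.card F) r) ∧
      a ^ tor (Nat.card F) (eta (eo (Nat.card F) r)) (sg (eo (Nat.card F) r)) = 1 ∧
      dickson (S.nd_right hQ) b = dickson hQ g := by
  obtain ⟨W, U, S, a, b, s, h1, h3, h4, h5⟩ := exists_split_r p hQ hr hrp h2 hd
  obtain ⟨⟨m, h6⟩, h7⟩ := fpf_dim p (S.nd_left hQ) hr hrp h2 h3 h4
  have h9 := S.finrank_add
  have h8 : finrank F W = 2 * eta (eo (Nat.card F) r) := by
    rcases m with - | - | m
    · omega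
    · omega
    · have := Nat.mul_le_mul_left (2 * eta (eo (Nat.card F) r)) (show 2 ≤ m + 1 + 1 by omega)
      omega
  haveI : Nontrivial W := nontrivial_of_finrank_pos (R := F) h5
  refine ⟨W, U, S, a, b, s, h1, h3, h4, h8, h7 h8, ?_, ?_, ?_⟩
  · rw [qsg_of_finrank_eq hQ S (h8 ▸ even_two_mul _), ← h7 h8, ← Units.val_mul, mul_right_comm,
      Int.units_mul_self, one_mul]
  · haveI := Fact.mk hr
    have h10 : orderOf (a ^ s) = r :=
      orderOf_eq_prime h3 fun h => by simp [h, O.fix_eq_top_iff.2 rfl] at h4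
    have := cl_torus p (cl_O (S.nd_left hQ) a) (O.oE (S.nd_left hQ) a).isUnit hr hrp h2
      (by rw [orderOf_coe, ← h10]; exact orderOf_pow_dvd s) h8.le
    rwa [← orderOf_dvd_iff_pow_eq_one, orderOf_coe, orderOf_dvd_iff_pow_eq_one] at this
  · have h10 : dickson (S.nd_left hQ) a = 1 := by
      rw [dickson_eq_one_iff, O.comm_eq_top_iff.2 (O.fix_eq_bot_iff.2 fun v hv =>
        O.fix_eq_bot_iff.1 h4 v (O.pow_apply_of_fix hv s)), finrank_top, h8]
      exact even_two_mul _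
    rw [← h1, S.dickson_sumMap hQ, h10, one_mul]

omit [Finite F] in
theorem eq_one_of_finrank_le_one (hQ : ND Q) (h : finrank F V ≤ 1) {b : O Q}
    (hb : dickson hQ b = 1) : b = 1 := by
  obtain ⟨j, hj⟩ := (dickson_eq_one_iff hQ).1 hb
  have := O.finrank_comm_add_finrank_fix b
  exact O.comm_eq_bot_iff.1 (Submodule.finrank_eq_zero.1 (by omega))

theorem plane_pow (hQ : ND Q) (h : finrank F V = 2) {b : O Q} (hb : dickson hQ b = 1) :
    b ^ tor (Nat.card F) 1 (qsg Q) = 1 := by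
  have h1 := (dickson hQ).ker.card_mul_index
  rw [index_ker_dickson hQ (by omega)] at h1
  have h2 : Nat.card (dickson hQ).ker = tor (Nat.card F) 1 (qsg Q) := by
    rw [qsg_even (h ▸ even_two)]
    rcases wittIndex_eq_or hQ (m := 1) h with e | e
    · rw [card_O_plus (m := 0) hQ h e] at h1
      rw [osign_eq_one_iff.2 (by omega), Units.val_one, tor_one]
      simp at h1 ⊢
      omega
    · rw [card_O_minus (m := 0) hQ h (by omega)] at h1
      rw [osign_eq_neg_one_iff.2 (by omega), Units.val_neg, Units.val_one, tor_neg]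
      simp at h1 ⊢
      omega
  rw [← h2]
  exact congrArg Subtype.val (pow_card_eq_one' (x := (⟨b, hb⟩ : (dickson hQ).ker)))

theorem neg_not_mem (hQ : ND Q) (h2 : (2 : F) ≠ 0) {m : ℕ} (hV : finrank F V = 2 * m) (hm : 0 < m)
    (h : tor (Nat.card F) m (qsg Q) % 4 = 2) : O.neg Q ∉ commutator (O Q) := fun hn => by
  cases nonempty_fintype F
  have h4 := wittIndex_eq_iff_disc hQ h2 hV
  have h5 := pow_mod_four_eq_one_or (odd_card_iff.2 h2) m
  rw [((neg_mem_commutator_iff hQ h2).1 hn).2, eq_comm (a := 1), sqsign_neg_one_pow h2,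
    ← Nat.card_eq_fintype_card] at h4
  rw [← Nat.card_eq_fintype_card] at h5
  rw [qsg_even (hV ▸ even_two_mul _)] at h
  rcases wittIndex_eq_or hQ hV with e | e
  · rw [osign_eq_one_iff.2 (by omega), Units.val_one, tor_one] at h
    have := h4.1 e
    omega
  · rw [osign_eq_neg_one_iff.2 (by omega), Units.val_neg, Units.val_one, tor_neg] at h
    have := h4.not.1 (by omega)
    omega

variable (Q) in
/-- The set of element orders of `PΩ(Q)`. -/
abbrev om : Set ℕ := Set.range (orderOf : PCom (O Q) → ℕ)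

theorem mem_om (hQ : ND Q) (h5 : 5 ≤ finrank F V) : k ∈ om Q ↔
    ∃ g ∈ commutator (O Q), ∀ j, (g ^ j = 1 ∨ g ^ j = O.neg Q) ↔ k ∣ j := by
  refine Orth.mem_range_orderOf_iff.trans ?_
  have := fun g => mem_center_commutator_iff (g := g) hQ (not_exc_of_five_le h5) (by omega)
  exact ⟨fun ⟨g, h⟩ => ⟨g, g.2, fun j => (this (g ^ j)).symm.trans (h j)⟩,
    fun ⟨g, hg, h⟩ => ⟨⟨g, hg⟩, fun j => (this _).trans (h j)⟩⟩

theorem mem_om_of (hQ : ND Q) (h5 : 5 ≤ finrank F V) {g : O Q} (hg : g ∈ commutator (O Q))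
    (h : ∀ j, (g ^ j = 1 ∨ g ^ j = O.neg Q) → k ∣ j) : k ∈ om Q := by
  refine GLC.mem_range_orderOf_iff.2 ⟨QuotientGroup.mk ⟨g, hg⟩, h _ ?_⟩
  have := pow_orderOf_eq_one (QuotientGroup.mk ⟨g, hg⟩ : PCom (O Q))
  rwa [← QuotientGroup.mk_pow, QuotientGroup.eq_one_iff,
    mem_center_commutator_iff hQ (not_exc_of_five_le h5) (by omega)] at this

theorem exists_of_mem_om (hQ : ND Q) (h5 : 5 ≤ finrank F V) (h : k ∈ om Q) :
    ∃ g ∈ commutator (O Q), k ∣ orderOf g :=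
  let ⟨g, hg, h⟩ := (mem_om hQ h5).1 h
  ⟨g, hg, (h _).1 (.inl (pow_orderOf_eq_one g))⟩

theorem mem_om_of_blk (hQ : ND Q) (h5 : 5 ≤ finrank F V) {d : ℕ} {ε : ℤˣ} {A : ℕ → Prop}
    (hB : Blk F d ε 1 1 0 A) (hd : d ≤ finrank F V) (hε : d = finrank F V → ε = qsg Q)
    (hk : ∀ j, A j → k ∣ j) (hk' : d = finrank F V → (2 : F) ≠ 0 → ∀ j, A (2 * j) → k ∣ j) :
    k ∈ om Q := by
  obtain ⟨W, _, _, _, R, hR, x, rfl, rfl, h1, h2, h3⟩ := hB
  replace h3 : ∀ n, x ^ n = 1 → A n := fun n e =>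
    h3 n (ex_zero_iff.2 (by rw [← O.coe_pow_end, e]; rfl))
  obtain ⟨R', hR', hE⟩ := exists_equivalent_prod hQ hR (k := finrank F V - finrank F W) (by omega)
    fun e => hε (by omega)
  obtain ⟨e, he⟩ := equivalent_iff.1 hE
  have hP := nd_prod hR hR'
  have h4 : ∀ n, O.congrI e he (O.prodMap R R' (x, 1)) ^ n = 1 → x ^ n = 1 := fun n h => by
    rw [← map_pow, map_eq_one_iff _ (MulEquiv.injective _), ← map_pow,
      map_eq_one_iff _ O.prodMap_injective] at h
    exact congrArg Prod.fst h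
  refine mem_om_of hQ h5 (g := O.congrI e he (O.prodMap R R' (x, 1)))
    ((mem_commutator_iff hQ (not_exc_of_five_le h5) _).2 ⟨?_, ?_⟩) fun j h => ?_
  · rw [dickson_congrI hP, dickson_prodMap hR hR', h1, map_one, mul_one]
  · rw [spinor_congrI hP, spinor_prodMap hR hR', h2, map_one, mul_one]
  rcases h with h | h
  · exact hk j (h3 j (h4 j h))
  by_cases g2 : (2 : F) = 0
  · exact hk j (h3 j (h4 j (h.trans (neg_eq_one_of_two_eq_zero g2))))
  by_cases g : finrank F W = finrank F V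
  · exact hk' g g2 j (h3 _ (h4 _ (by rw [two_mul, pow_add, h, Orth.neg_mul_neg])))
  exfalso
  let u : Fin (finrank F V - finrank F W) → F := fun _ => 1
  have g3 : (O.congrI e he (O.prodMap R R' (x, 1))).1 (e (0, u)) = e (0, u) := by
    rw [O.congrI_apply', O.prodMap_apply]; simp [O.one_apply]
  have g4 := O.pow_apply_of_fix g3 j
  rw [h, O.neg_apply, ← map_neg, e.injective.eq_iff] at g4
  have g5 := congrFun (congrArg Prod.snd g4) ⟨0, by omega⟩
  exact g2 (by simp [u] at g5; linear_combination -g5)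

end Cfsg.Lib.SPO
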