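import Cfsg.Agent.Lib.SPO.LO

/-!
# The spectrum interface for `PΩ(Q)`
-/

set_option autoImplicit false

namespace Cfsg.Lib.SPO

open Module Cfsg.Lib.GLC Cfsg.Lib.Symp Cfsg.Lib.Orth
open QuadraticMap (polar polarBilin)

universe w

variable {F : Type w} {V : Type*} [Field F] [Finite F] [AddCommGroup V] [Module F V]
  [Module.Finite F V] {Q : QuadraticForm F V} (p : ℕ) [hp : Fact p.Prime] [CharP F p] {r k : ℕ}

/-- the unit with value `δ = ± 1` -/
def un (δ : ℤ) : ℤˣ := if δ = 1 then 1 else -1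

theorem coe_un {δ : ℤ} (h : δ = 1 ∨ δ = -1) : (un δ : ℤ) = δ := by
  rcases h with rfl | rfl <;> rfl

theorem blk_tor {j : ℕ} (hj : 0 < j) (δ : ℤ) :
    Blk F (2 * j) (un δ) 1 1 0 fun n => tor (Nat.card F) j δ ∣ 2 * n := by
  have := (blk_torus (F := F) (x := (j, decide (δ = 1))) hj).sq
  simpa [un, tor_eq_tN] using this

omit [Finite F] in
theorem two_eq_zero_iff : (2 : F) = 0 ↔ p = 2 := by
  rw [← Nat.cast_ofNat (R := F) (n := 2), CharP.cast_eq_zero_iff F p,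
    Nat.prime_dvd_prime_iff_eq hp.out Nat.prime_two]

theorem dvd_of_uu {a n : ℕ} (ha : 2 ≤ a) (h : UU F a n) : p ∣ n := by
  rcases eq_or_ne n 0 with rfl | hn
  · simp
  rw [uu_iff p hn] at h
  refine dvd_of_one_le_padicValNat (Nat.one_le_iff_ne_zero.2 fun e => ?_)
  rw [e, pow_zero] at h
  omega

theorem blk_unip_odd (h2 : (2 : F) ≠ 0) (ε : ℤˣ) : Blk F 3 ε 1 1 0 (p ∣ ·) := by
  have := blk_odd (F := F) (k := 0) h2 ε (e := {3}) (by simp; decide) (a := 3) (by simp)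
  simp only [Multiset.sum_singleton, Multiset.card_singleton] at this
  exact Blk.mono this fun n h => dvd_of_uu p (by omega) h

theorem blk_unip_two (h2 : (2 : F) = 0) (ε : ℤˣ) : Blk F 4 ε 1 1 0 (p ∣ ·) := by
  have := (blk_reg (F := F) (k := 0) (m := 1) h2 one_ne_zero ε).prod
    (blk_reg (m := 1) h2 one_ne_zero 1) even_two
  simp only [mul_one, _root_.neg_mul_neg] at this
  exact Blk.mono this fun n h => dvd_of_uu p (by omega) h.1

theorem blk_inv (h2 : (2 : F) ≠ 0) : ∃ ε, Blk F 2 ε 1 1 0 (2 ∣ ·) := by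
  cases nonempty_fintype F
  have h := pow_mod_four_eq_one_or (odd_card_iff.2 h2) 1
  rw [← Nat.card_eq_fintype_card] at h
  rcases h with h | h
  · exact ⟨_, (blk_tor one_pos 1).mono fun n e => by
      have := (show 4 ∣ tor (Nat.card F) 1 1 by rw [tor_one]; omega).trans e; omega⟩
  · exact ⟨_, (blk_tor one_pos (-1)).mono fun n e => by
      have := (show 4 ∣ tor (Nat.card F) 1 (-1) by rw [tor_neg]; omega).trans e; omega⟩

variable (Q) in
/-- type and rank of a quadratic form -/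
def Ty (ε : ℤ) (n : ℕ) : Prop :=
  (ε = 0 ∧ finrank F V = 2 * n + 1 ∧ 3 ≤ n) ∨ (ε = qsg Q ∧ finrank F V = 2 * n ∧ 4 ≤ n)

variable {ε : ℤ} {n : ℕ}

omit [Finite F] in
theorem qsg_cases : (qsg Q : ℤ) = 1 ∨ (qsg Q : ℤ) = -1 := by
  rcases Int.units_eq_one_or (qsg Q) with h | h <;> simp [h]

omit [Finite F] in
theorem Ty.five (h : Ty Q ε n) : 5 ≤ finrank F V := by rcases h with h | h <;> omega

omit [Finite F] in
theorem Ty.of_ne (h : Ty Q ε n) (h0 : ε ≠ 0) : ε = qsg Q ∧ finrank F V = 2 * n ∧ 4 ≤ n :=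
  h.resolve_left fun e => h0 e.1

omit [Finite F] in
theorem Ty.of_eq (h : Ty Q ε n) (h0 : ε = 0) : finrank F V = 2 * n + 1 ∧ 3 ≤ n := by
  rcases h with h | h
  · exact h.2
  · have := qsg_cases (Q := Q); omega

omit [Finite F] in
theorem Ty.fit (h : Ty Q ε n) {m : ℕ} {δ : ℤ} (hδ : δ = 1 ∨ δ = -1) (hF : Fit ε n m δ) :
    2 * m ≤ finrank F V ∧ (2 * m = finrank F V → un δ = qsg Q) := by
  have := hF.1
  rcases h with h | h
  · exact ⟨by omega, fun e => by omega⟩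
  · refine ⟨by omega, fun e => Units.ext ?_⟩
    have := hF.2 (by omega)
    have := qsg_cases (Q := Q)
    rw [coe_un hδ]; omega

omit [Finite F] in
theorem Ty.fit' (h : Ty Q ε n) {m : ℕ} {δ : ℤ} (h1 : 2 * m ≤ finrank F V)
    (h2 : 2 * m = finrank F V → (qsg Q : ℤ) = δ) : Fit ε n m δ := by
  rcases h with h | h
  · exact ⟨by omega, fun _ => .inl h.1⟩
  · exact ⟨by omega, fun e => .inr (h.1.trans (h2 (by omega)))⟩

theorem un_mul {δ δ' : ℤ} (h : δ = 1 ∨ δ = -1) (h' : δ' = 1 ∨ δ' = -1) :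
    un (δ * δ') = un δ * un δ' := by
  rcases h with rfl | rfl <;> rcases h' with rfl | rfl <;> rfl

theorem odd_dvd {k a n : ℕ} (hk : Odd k) (h : k ∣ a) (h' : a ∣ 2 * n) : k ∣ n :=
  hk.coprime_two_right.dvd_of_dvd_mul_left (h.trans h')

section
variable (hQ : ND Q) (hT : Ty Q ε n)
include hQ hT

theorem oo_tor1 (j : ℕ) (δ : ℤ) (k : ℕ) (hj : 0 < j) (hδ : δ = 1 ∨ δ = -1) (hF : Fit ε n j δ)
    (hk : Odd k) (h : k ∣ tor (Nat.card F) j δ) : k ∈ om Q :=
  mem_om_of_blk hQ hT.five (blk_tor hj δ) (hT.fit hδ hF).1 (hT.fit hδ hF).2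
    (fun _ e => odd_dvd hk h e) fun _ _ _ e => odd_dvd hk (odd_dvd hk h e) dvd_rfl

theorem oo_tor2 (j : ℕ) (δ : ℤ) (j' : ℕ) (δ' : ℤ) (k : ℕ) (hj : 0 < j) (hj' : 0 < j')
    (hδ : δ = 1 ∨ δ = -1) (hδ' : δ' = 1 ∨ δ' = -1) (hF : Fit ε n (j + j') (δ * δ')) (hk : Odd k)
    (h : k ∣ (tor (Nat.card F) j δ).lcm (tor (Nat.card F) j' δ')) : k ∈ om Q := by
  have h1 := hT.fit (by rcases hδ with rfl | rfl <;> omega) hF
  have h2 := (blk_tor (F := F) hj δ).prod (blk_tor hj' δ') (even_two_mul _)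
  rw [mul_one, ← mul_add, ← un_mul hδ hδ'] at h2
  exact mem_om_of_blk hQ hT.five h2 h1.1 h1.2 (fun _ e => odd_dvd hk h (Nat.lcm_dvd e.1 e.2))
    fun _ _ _ e => odd_dvd hk (odd_dvd hk h (Nat.lcm_dvd e.1 e.2)) dvd_rfl

theorem oo_torp (j : ℕ) (δ : ℤ) (k : ℕ) (hj : 0 < j) (hF : j + (if ε = 0 then 1 else 2) ≤ n)
    (hk : Odd k) (h : k ∣ tor (Nat.card F) j δ) : k * p ∈ om Q := by
  have hc : k.Coprime p := ((coprime_tor Nat.card_pos hj δ).coprime_dvd_left h).coprime_dvd_right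
    (char_dvd_card p)
  by_cases h2 : (2 : F) = 0
  · have h1 := (blk_tor (F := F) hj δ).prod (blk_unip_two p h2 (un δ * qsg Q)) (even_two_mul _)
    rw [mul_one, ← mul_assoc, Int.units_mul_self, one_mul] at h1
    have h0 : ε ≠ 0 := fun e => by
      obtain ⟨i, hi⟩ := even_finrank_of_two_eq_zero hQ h2
      have := hT.of_eq e
      omega
    rw [if_neg h0] at hF
    exact mem_om_of_blk hQ hT.five h1 (by have := hT.of_ne h0; omega) (fun _ => rfl)
      (fun _ e => hc.mul_dvd_of_dvd_of_dvd (odd_dvd hk h e.1) e.2) fun _ e => absurd h2 e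
  · have h1 := (blk_tor (F := F) hj δ).prod (blk_unip_odd p h2 (un δ * qsg Q)) (even_two_mul _)
    rw [mul_one, ← mul_assoc, Int.units_mul_self, one_mul] at h1
    have ho := hk.mul (hp.out.odd_of_ne_two (mt (two_eq_zero_iff (F := F) p).2 h2))
    refine mem_om_of_blk hQ hT.five h1 ?_ (fun _ => rfl)
      (fun _ e => hc.mul_dvd_of_dvd_of_dvd (odd_dvd hk h e.1) e.2) fun _ _ _ e =>
        odd_dvd ho (hc.mul_dvd_of_dvd_of_dvd (odd_dvd hk h e.1) e.2) dvd_rfl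
    split_ifs at hF with h0
    · have := hT.of_eq h0; omega
    · have := hT.of_ne h0; omega

include p in
theorem oo_tor2x (j : ℕ) (δ : ℤ) (k : ℕ) (hj : 0 < j) (hF : j + (if ε = 0 then 1 else 2) ≤ n)
    (hk : Odd k) (h : k ∣ tor (Nat.card F) j δ) : k * 2 ∈ om Q := by
  by_cases h2 : (2 : F) = 0
  · rw [← (two_eq_zero_iff (F := F) p).1 h2]
    exact oo_torp p hQ hT j δ k hj hF hk h
  obtain ⟨s, hs⟩ := blk_inv h2
  have h1 := (blk_tor (F := F) hj δ).prod hs (even_two_mul _)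
  rw [mul_one] at h1
  have h3 : 2 * j + 2 < finrank F V := by
    split_ifs at hF with h0
    · have := hT.of_eq h0; omega
    · have := hT.of_ne h0; omega
  exact mem_om_of_blk hQ hT.five h1 h3.le (fun e => absurd e h3.ne)
    (fun _ e => hk.coprime_two_right.mul_dvd_of_dvd_of_dvd (odd_dvd hk h e.1) e.2)
    fun e => absurd e h3.ne

theorem oo_pi (hω : r ∈ om Q) (hr : r.Prime) (hrp : r ≠ p) (h2 : r ≠ 2) :
    Fit ε n (eta (eo (Nat.card F) r)) (sg (eo (Nat.card F) r)) := by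
  obtain ⟨g, -, hg⟩ := exists_of_mem_om hQ hT.five hω
  exact hT.fit' (fit_of_dvd p hQ hr hrp h2 hg).1 (fit_of_dvd p hQ hr hrp h2 hg).2

theorem oo_rpow (a : ℕ) (hr : r.Prime) (hrp : r ≠ p) (hω : r ^ a ∈ om Q) (h2 : 2 < r ^ a) :
    ∃ j δ, 0 < j ∧ j ≤ n ∧ (δ = 1 ∨ δ = -1) ∧ r ^ a ∣ tor (Nat.card F) j δ := by
  obtain ⟨g, -, hg⟩ := exists_of_mem_om hQ hT.five hω
  obtain ⟨j, δ, h3, h4, h5⟩ := cl_rpow p (cl_O hQ g) (O.oE hQ g).isUnit hr hrp
    (by rwa [orderOf_coe]) h2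
  exact ⟨j, δ, h3, by rcases hT with h | h <;> omega, h5⟩

theorem oo_ppow (a : ℕ) (hω : p ^ (a + 1) ∈ om Q) : p ^ a < if ε = 0 then 2 * n else 2 * n - 2 := by
  obtain ⟨g, hg, s, hs⟩ := exists_of_mem_om hQ hT.five hω
  have h0 : orderOf (g ^ s) = p ^ (a + 1) := by
    rw [orderOf_pow' _ (by rintro rfl; exact (orderOf_pos g).ne' (by simpa using hs)), hs,
      Nat.gcd_mul_left_left, Nat.mul_div_cancel _ (Nat.pos_of_mul_pos_left (hs ▸ orderOf_pos g))]
  obtain ⟨d, h1, h3, e, h4, h5⟩ := exists_jt p ((orderOf_coe (g ^ s)).trans h0)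
  have h6 := finrank_eq_add (ρ := 0) (h1.trans (add_zero _).symm)
  have h7 := even_card_iff (ρ := 0) (h1.trans (add_zero _).symm) h3 (by simp)
  simp only [Multiset.map_zero, Multiset.sum_zero, add_zero] at h6
  rw [one_smul] at h7
  have h8 := Multiset.single_le_sum (fun _ _ => Nat.zero_le _) _ h4
  have h9 : p ≠ 2 → Odd (p ^ a) := fun h => (hp.out.odd_of_ne_two h).pow
  split_ifs with h
  · have := hT.of_eq h
    obtain ⟨i, hi⟩ := h9 (mt (two_eq_zero_iff (F := F) p).2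
      (two_ne_zero_of_odd_finrank hQ ⟨n, this.1⟩))
    omega
  have h10 := hT.of_ne h
  obtain ⟨i, hi⟩ := (dickson_eq_one_iff hQ).1
    ((mem_commutator_iff hQ (not_exc_of_five_le hT.five) _).1 (pow_mem hg s)).1
  change finrank F (O.comm (g ^ s)) + _ = _ at h7
  have h11 := lt_sum_of_even h3 ⟨n - i, by omega⟩ h4
  by_cases h12 : p = 2
  swap
  · obtain ⟨i, hi⟩ := h9 h12
    omega
  by_contra! h13
  have h14 := ((O.oE hQ (g ^ s)).spE ((two_eq_zero_iff (F := F) p).2 h12)).spT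
  rw [h1, spT_jt_one] at h14
  obtain ⟨c, hc⟩ := h14 e ⟨n - 1, by omega⟩
  have h15 := Multiset.one_le_count_iff_mem.2 h4
  have h16 : Multiset.replicate 2 e ≤ d := Multiset.le_count_iff_replicate_le.1 (by omega)
  obtain ⟨u, rfl⟩ := Multiset.le_iff_exists_add.1 h16
  simp at h6
  omega

include p in
theorem oo_bound (hω : k ∈ om Q) : (Nat.card F - 1) * k ≤ Nat.card F ^ (n + 1) := by
  obtain ⟨g, -, hg⟩ := (mem_om hQ hT.five).1 hω
  obtain ⟨N, h0, h1, c, h2, h3⟩ := real_order_lt p (cl_O hQ g) (m := n) (by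
    rcases hT with h | h
    · exact .inr ⟨h.2.1.le, mt (two_eq_zero_iff (F := F) p).2
        (two_ne_zero_of_odd_finrank hQ ⟨n, h.2.1⟩), h.2.2⟩
    · exact .inl ⟨h.2.1.le, by omega⟩)
  haveI : Nontrivial V := nontrivial_of_finrank_pos (R := F) (by have := hT.five; omega)
  obtain ⟨v, hv⟩ := hQ.exists_Q_ne
  have h4 := (hg N).1 (eq_one_or_neg_of_smul (a := c) hv fun x => by
    rw [← O.coe_pow_end] at h3; exact LinearMap.congr_fun h3 x)
  exact (Nat.mul_le_mul_left _ (Nat.le_of_dvd h0 h4)).trans h1.le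

theorem oo_big0 (hω : k ∈ om Q) (hr : r.Prime) (hrp : r ≠ p) (h2 : r ≠ 2) (hk : r ∣ k)
    (he : eta (eo (Nat.card F) r) = n) : k ∣ tor (Nat.card F) n (sg (eo (Nat.card F) r)) := by
  obtain ⟨g, hg, h0⟩ := exists_of_mem_om hQ hT.five hω
  obtain ⟨W, U, S, a, b, s, h1, -, -, h3, -, -, h4, h5⟩ := exists_big p hQ hr hrp h2 (hk.trans h0)
    (by rcases hT with h | h <;> omega)
  have h6 := S.finrank_add
  rw [((mem_commutator_iff hQ (not_exc_of_five_le hT.five) _).1 hg).1] at h5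
  obtain rfl := eq_one_of_finrank_le_one _ (by rcases hT with h | h <;> omega) h5
  refine h0.trans (orderOf_dvd_of_pow_eq_one ?_)
  rw [← h1, S.sumMap_pow, S.sumMap_eq_one, one_pow, ← he]
  exact ⟨h4, rfl⟩

theorem oo_big1 (h0 : ε ≠ 0) (hω : k ∈ om Q) (hr : r.Prime) (hrp : r ≠ p) (h2 : r ≠ 2) (hk : r ∣ k)
    (he : eta (eo (Nat.card F) r) + 1 = n) : k ∣ (tor (Nat.card F) (n - 1) (sg (eo (Nat.card F) r))).lcm
      (tor (Nat.card F) 1 (ε * sg (eo (Nat.card F) r))) := by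
  obtain ⟨g, hg, h7⟩ := exists_of_mem_om hQ hT.five hω
  have h8 := hT.of_ne h0
  obtain ⟨W, U, S, a, b, s, h1, -, -, h3, -, h9, h4, h5⟩ := exists_big p hQ hr hrp h2 (hk.trans h7)
    (by omega)
  have h6 := S.finrank_add
  rw [((mem_commutator_iff hQ (not_exc_of_five_le hT.five) _).1 hg).1] at h5
  have h10 := plane_pow _ (by omega) h5
  refine h7.trans (orderOf_dvd_of_pow_eq_one ?_)
  rw [← h1, S.sumMap_pow, S.sumMap_eq_one, ← orderOf_dvd_iff_pow_eq_one,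
    ← orderOf_dvd_iff_pow_eq_one, h8.1, ← h9, show n - 1 = eta (eo (Nat.card F) r) by omega]
  exact ⟨(orderOf_dvd_of_pow_eq_one h4).trans (Nat.dvd_lcm_left _ _),
    (orderOf_dvd_of_pow_eq_one h10).trans (Nat.dvd_lcm_right _ _)⟩

theorem oo_nrs {s : ℕ} (hr : r.Prime) (hrp : r ≠ p) (h2 : r ≠ 2) (hs : s.Prime) (hsp : s ≠ p)
    (hs2 : s ≠ 2) (hω : r * s ∈ om Q) (he : n < 2 * eta (eo (Nat.card F) r)) :
    s ∣ tor (Nat.card F) (eta (eo (Nat.card F) r)) (sg (eo (Nat.card F) r)) ∨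
      Fit ε n (eta (eo (Nat.card F) r) + eta (eo (Nat.card F) s))
        (sg (eo (Nat.card F) r) * sg (eo (Nat.card F) s)) := by
  obtain ⟨g, hg, h7⟩ := exists_of_mem_om hQ hT.five hω
  obtain ⟨W, U, S, a, b, t, h1, -, -, h3, -, h9, h4, -⟩ := exists_big p hQ hr hrp h2
    ((dvd_mul_right r s).trans h7) (by rcases hT with h | h <;> omega)
  have h6 := S.finrank_add
  have h8 : orderOf g ∣ orderOf a * orderOf b := by
    rw [orderOf_dvd_iff_pow_eq_one, ← h1, S.sumMap_pow, S.sumMap_eq_one, pow_mul, pow_mul',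
      pow_orderOf_eq_one, pow_orderOf_eq_one, one_pow, one_pow]
    exact ⟨rfl, rfl⟩
  refine (hs.dvd_mul.1 (((dvd_mul_left s r).trans h7).trans h8)).imp
    (·.trans (orderOf_dvd_of_pow_eq_one h4)) fun h => ?_
  obtain ⟨h10, h11⟩ := fit_of_dvd p (S.nd_right hQ) hs hsp hs2 h
  refine hT.fit' (by omega) fun e => ?_
  rw [← h11 (by omega), h9]
  rcases sg_cases (eo (Nat.card F) r) with h | h <;> simp [h]

theorem oo_n2 (hp2 : p ≠ 2) (hr : r.Prime) (hrp : r ≠ p) (h2 : r ≠ 2)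
    (he : finrank F V ≤ 2 * eta (eo (Nat.card F) r) + 2)
    (h4 : tor (Nat.card F) (eta (eo (Nat.card F) r)) (sg (eo (Nat.card F) r)) % 4 = 2)
    (h5 : finrank F V = 2 * eta (eo (Nat.card F) r) + 2 →
      tor (Nat.card F) 1 (qsg Q * sg (eo (Nat.card F) r)) % 4 = 2) : 2 * r ∉ om Q := fun hω => by
  haveI := Fact.mk hr
  have g2 := mt (two_eq_zero_iff (F := F) p).1 hp2
  have hE := not_exc_of_two_ne_zero (Q := Q) g2
  have h5' := hT.five
  obtain ⟨g, hg, h0⟩ := (mem_om hQ hT.five).1 hω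
  obtain ⟨W, U, S, a, b, s, h1, h3, h6, h7, h8, h9, h10, h11⟩ := exists_big p hQ hr hrp h2
    ((dvd_mul_left r 2).trans ((h0 _).1 (.inl (pow_orderOf_eq_one g)))) (by omega)
  have h12 := S.finrank_add
  have h13 : ¬ (g ^ r = 1 ∨ g ^ r = O.neg Q) := fun h => by
    have := Nat.le_of_dvd hr.pos ((h0 r).1 h); have := hr.pos; omega
  have h14 := (h0 _).2 dvd_rfl
  have h15 : (a ^ r) ^ 4 = 1 := by
    have : g ^ (2 * r + 2 * r) = 1 := by
      rw [pow_add]; rcases h14 with h | h <;> rw [h]; exacts [one_mul _, Orth.neg_mul_neg]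
    rw [← h1, S.sumMap_pow, S.sumMap_eq_one] at this
    rw [← pow_mul, ← this.1]; congr 1; ring
  have h16 : a ^ r * a ^ r = 1 := by
    have e1 := orderOf_dvd_of_pow_eq_one h15
    have e2 := (orderOf_pow_dvd r).trans (orderOf_dvd_of_pow_eq_one h10)
    rw [← pow_two, ← orderOf_dvd_iff_pow_eq_one]
    have e3 := Nat.dvd_gcd e1 e2
    rwa [Nat.gcd_rec, h4] at e3
  have h17 := eq_one_or_eq_neg (hr.odd_of_ne_two h2) (fun i hi hi' h => by
    exact hi'.not_ge (Nat.le_of_dvd hi (eta_le_of_dvd (eta_hyp _) h))) (S.nd_left hQ) g2 h7 h3 h6 h16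
    (Commute.pow_pow_self a s r)
  have h18 := eta_pos (eo_ne_zero (F := F) p hr hrp)
  haveI : Nontrivial W := nontrivial_of_finrank_pos (R := F) (by omega)
  have h19 : b ^ r * b ^ r = 1 := by
    rw [two_mul, pow_add, ← h1, S.sumMap_pow, ← map_mul, Prod.mk_mul_mk, h16] at h14
    rcases h14 with h | h
    · exact (S.sumMap_eq_one.1 h).2
    · rw [← S.sumMap_neg] at h
      exact absurd (congrArg Prod.fst (S.sumMap_injective h)).symm (neg_ne_one g2)
  rw [((mem_commutator_iff hQ hE _).1 hg).1] at h11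
  have h20 : dickson (S.nd_right hQ) (b ^ r) = 1 := by rw [map_pow, h11, one_pow]
  have h21 := ((mem_commutator_iff hQ hE _).1 (pow_mem hg r)).2
  rw [← h1, S.sumMap_pow] at h21 h13
  rw [S.spinor_sumMap hQ] at h21
  have h22 : O.neg (Q.restrict W) ∉ commutator _ := neg_not_mem (S.nd_left hQ) g2 h7 h18 (h8 ▸ h4)
  have h23 : b ^ r = 1 ∨ (finrank F U = 2 ∧ b ^ r = O.neg _) := by
    obtain ⟨i, hi⟩ := (dickson_eq_one_iff _).1 h20
    have := O.finrank_comm_add_finrank_fix (b ^ r)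
    rcases eq_or_ne i 0 with rfl | h
    · exact .inl (O.comm_eq_bot_iff.1 (Submodule.finrank_eq_zero.1 hi))
    · exact .inr ⟨by omega, O.eq_neg_of_comm_eq_top h19 (Submodule.eq_top_of_finrank_eq (by omega))⟩
  rcases h17 with h | h <;> rcases h23 with h' | ⟨h24, h'⟩ <;> rw [h, h'] at h13 h21
  · exact h13 (.inl (map_one _))
  · rw [map_one, one_mul] at h21
    exact neg_not_mem (S.nd_right hQ) g2 (m := 1) h24 one_pos (h9 ▸ h5 (by omega))
      ((mem_commutator_iff _ (not_exc_of_two_ne_zero g2) _).2 ⟨h' ▸ h20, h21⟩)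
  · rw [map_one, mul_one] at h21
    exact h22 ((mem_commutator_iff _ (not_exc_of_two_ne_zero g2) _).2
      ⟨by rw [dickson_neg, h7]; simp, h21⟩)
  · exact h13 (.inr S.sumMap_neg)

theorem ls_o : LS (om Q) ε n (Nat.card F) p where
  hp := hp.out
  hq := by
    cases nonempty_fintype F
    obtain ⟨f, -, hf⟩ := FiniteField.card F p
    exact ⟨f, f.2, by rw [Nat.card_eq_fintype_card, hf]⟩
  rng := by
    rcases hT with h | h
    · exact .inl ⟨h.1, by omega, by omega⟩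
    · exact .inr ⟨h.1 ▸ qsg_cases, h.2.2⟩
  pos := by rintro _ ⟨g, rfl⟩; exact orderOf_pos g
  dvd := fun a b h hb => by
    obtain ⟨g, rfl⟩ := hb
    exact GLC.mem_range_orderOf_iff.2 ⟨g, h⟩
  tor1 := oo_tor1 hQ hT
  tor2 := oo_tor2 hQ hT
  torp := fun j δ k hj _ => oo_torp p hQ hT j δ k hj
  tor2x := fun j δ k hj _ => oo_tor2x p hQ hT j δ k hj
  pi := fun _ => oo_pi p hQ hT
  rpow := fun _ => oo_rpow p hQ hT
  ppow := oo_ppow p hQ hT
  bound := fun _ => oo_bound p hQ hT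
  big0 := fun _ hω _ => oo_big0 p hQ hT hω
  big1 := fun h0 _ hω _ => oo_big1 p hQ hT h0 hω
  nrs := fun _ _ hr hrp h2 hs hsp hs2 _ => oo_nrs p hQ hT hr hrp h2 hs hsp hs2
  n2a := fun hp2 r hr hrp h2 he h => oo_n2 p hQ hT hp2 hr hrp h2
    (by rcases hT with h | h <;> omega) (he.symm ▸ h) fun e => by rcases hT with h | h <;> omega
  n2b := fun hp2 h0 r hr hrp h2 he h h' => oo_n2 p hQ hT hp2 hr hrp h2
    (by have := hT.of_ne h0; omega) (by rwa [show n - 1 = eta (eo (Nat.card F) r) by omega] at h)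
    fun _ => (hT.of_ne h0).1 ▸ h'

end

end Cfsg.Lib.SPO
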