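import Cfsg.Agent.Lib.SPO.LE
import Cfsg.Agent.Lib.SPL.NuC

/-!
# S3535, numbers: the primes not joined to `2` and the residual list
-/

set_option autoImplicit false

namespace Cfsg.Lib.SPO

open Cfsg.Lib.SPL Cfsg.Lib.GLC

variable {ω : Set ℕ} {ε : ℤ} {n q p i m N : ℕ}

/-- the primes `r` with `eo q r = i` are not joined to `2` -/
def Iso (ε : ℤ) (n q i : ℕ) : Prop :=
  (eta i = n ∧ Fit ε n n (sg i) ∧ (q % 2 = 0 ∨ tor q n (sg i) % 4 = 2)) ∨
    (ε ≠ 0 ∧ eta i + 1 = n ∧ (q % 2 = 0 ∨ tor q (n - 1) (sg i) % 4 = 2 ∧ tor q 1 (ε * sg i) % 4 = 2))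

instance decIso (ε : ℤ) (n q i : ℕ) : Decidable (Iso ε n q i) := by unfold Iso; infer_instance

theorem w_nat (hq : 0 < q) (d : ℕ) : w q d = q ^ d - 1 := by
  have := Nat.one_le_pow d q hq
  rw [w, ← Nat.cast_pow, ← Nat.cast_one (R := ℤ), ← Nat.cast_sub this, Int.natAbs_natCast]

theorem pr_eo (hq : 0 < q) (hi : 0 < i) (h : Pr q i m) {r : ℕ} (hr : r.Prime) (d : r ∣ m) : eo q r = i := by
  have h1 : eo q r ∣ i := (dvd_pow_sub_one_iff hq).1 (w_nat hq i ▸ d.trans h.1)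
  by_contra e
  have h2 := h.2 _ (Nat.pos_of_dvd_of_pos h1 hi) (lt_of_le_of_ne (Nat.le_of_dvd hi h1) e)
  rw [w_nat hq] at h2
  exact hr.one_lt.ne' (Nat.eq_one_of_dvd_coprimes h2 d ((dvd_pow_sub_one_iff hq).2 dvd_rfl))

theorem pr_tor (hq : 0 < q) (hi : 0 < i) (h : Pr q i m) : m ∣ tor q (eta i) (sg i) := by
  have h1 := w_nat hq i ▸ h.1
  rcases eta_spec i with ⟨-, a, b⟩ | ⟨-, a, b⟩
  · rwa [a, b, tor_one]
  · have h2 := h.2 (eta i) (by omega) (by omega)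
    rw [w_nat hq] at h2
    rw [b, tor_neg]
    refine h2.dvd_of_dvd_mul_right ?_
    rwa [← Nat.sq_sub_sq (q ^ eta i) 1, ← pow_mul, mul_comm, a, one_pow]

theorem zmod_two_cases : ∀ x : ZMod 2, x = 0 ∨ x = 1 := by decide

theorem pr_odd (hq : 0 < q) (hi : 2 ≤ i) (h : Pr q i m) : Odd m := by
  refine Nat.not_even_iff_odd.1 fun e => ?_
  have h1 := pr_eo hq (by omega) h Nat.prime_two e.two_dvd
  have h4 : (q : ZMod 2) ^ i = 1 := h1 ▸ pow_orderOf_eq_one _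
  have h5 : (q : ZMod 2) = 1 := (zmod_two_cases _).resolve_left fun e => by
    rw [e, zero_pow (by omega)] at h4; exact absurd h4 (by decide)
  rw [eo, h5, orderOf_one] at h1
  omega

theorem Iso.two_le (h : Iso ε n q i) (r : (ε = 0 ∧ 2 ≤ n ∧ (n = 2 → 4 ≤ q)) ∨ ((ε = 1 ∨ ε = -1) ∧ 4 ≤ n)) :
    2 ≤ i := by
  have := eta_hyp i
  rcases h with h | h <;> omega

namespace LS

variable (h : LS ω ε n q p)
include h

theorem two_le : 2 ≤ q := h.hp.two_le.trans (Nat.le_of_dvd h.q_pos h.p_dvd)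

theorem pp : IsPrimePow q := by
  obtain ⟨f, hf, rfl⟩ := h.hq
  exact h.hp.isPrimePow.pow hf.ne'

theorem even_iff : q % 2 = 0 ↔ p = 2 := by
  obtain ⟨f, hf, rfl⟩ := h.hq
  rw [← Nat.dvd_iff_mod_eq_zero, Nat.prime_two.prime.dvd_pow_iff_dvd hf.ne',
    Nat.prime_dvd_prime_iff_eq Nat.prime_two h.hp, eq_comm]

/-- primitive divisors of an isolated index are element orders, not joined to `2` -/
theorem iso (hi : Iso ε n q i) (hm : Pr q i m) : m ∈ ω ∧ Odd m ∧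
    ∀ r, r.Prime → r ∣ m → r ≠ p ∧ eo q r = i ∧ 2 * r ∉ ω := by
  have h2 := hi.two_le h.rng
  have h3 := pr_odd h.q_pos h2 hm
  have h4 := pr_tor h.q_pos (by omega) hm
  have h5 := eta_pos (k := i) (by omega)
  refine ⟨h.tor1 _ _ _ h5 (sg_cases i) ?_ h3 h4, h3, fun r hr d => ?_⟩
  · rcases hi with ⟨a, b, -⟩ | ⟨-, a, -⟩
    · rwa [a]
    · exact ⟨by omega, by omega⟩
  have h6 : r ≠ p := fun e => h.not_dvd_tor h5 _ (e ▸ d.trans h4)
  have h7 := pr_eo h.q_pos (by omega) hm hr d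
  have h8 : r ≠ 2 := fun e => Nat.not_even_iff_odd.2 h3 (even_iff_two_dvd.2 (e ▸ d))
  refine ⟨h6, h7, ?_⟩
  subst h7
  by_cases h9 : p = 2
  · intro e
    have := h.nrp hr h6 h8 (by rwa [h9, mul_comm])
    rcases hi with ⟨a, -⟩ | ⟨a, b, -⟩
    · split_ifs at this <;> omega
    · rw [if_neg a] at this; omega
  · have := mt h.even_iff.1 h9
    rcases hi with ⟨a, -, b⟩ | ⟨a, b, c⟩
    · exact h.n2a h9 r hr h6 h8 a (b.resolve_left this)
    · exact h.n2b h9 a r hr h6 h8 b (c.resolve_left this).1 (c.resolve_left this).2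

end LS

theorem pow_mod_four (k : ℕ) : (q % 4 = 1 → q ^ k % 4 = 1) ∧
    (q % 4 = 3 → q ^ k % 4 = if k % 2 = 0 then 1 else 3) := by
  induction k with
  | zero => simp
  | succ k ih =>
    refine ⟨fun h => by rw [pow_succ, Nat.mul_mod, ih.1 h, h], fun h => ?_⟩
    rw [pow_succ, Nat.mul_mod, ih.2 h, h]
    split_ifs <;> omega

theorem eta_two_mul (k : ℕ) : eta (2 * k) = k := by simp [eta]

theorem sg_two_mul (k : ℕ) : sg (2 * k) = -1 := by simp [sg]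

theorem eta_odd {k : ℕ} (h : k % 2 = 1) : eta k = k := if_neg (by omega)

theorem sg_odd {k : ℕ} (h : k % 2 = 1) : sg k = 1 := if_neg (by omega)

theorem iso_A (a : ε ≠ 1) (r : ε = 0 ∨ ε = 1 ∨ ε = -1) (b : q % 2 = 0 ∨ q % 4 = 1 ∨ n % 2 = 0) :
    Iso ε n q (2 * n) := by
  refine .inl ⟨eta_two_mul n, ⟨le_rfl, fun _ => by rw [sg_two_mul]; omega⟩, ?_⟩
  obtain ⟨a1, a2⟩ := pow_mod_four (q := q) n
  rw [sg_two_mul, tor_neg]
  generalize q ^ n = x at *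
  split_ifs at a2 <;> omega

theorem iso_B (a : ε ≠ -1) (r : ε = 0 ∨ ε = 1 ∨ ε = -1) (c : n % 2 = 1) (b : q % 4 ≠ 1) : Iso ε n q n := by
  refine .inl ⟨eta_odd c, ⟨le_rfl, fun _ => by rw [sg_odd c]; omega⟩, ?_⟩
  obtain ⟨a1, a2⟩ := pow_mod_four (q := q) n
  rw [sg_odd c, tor_one]
  generalize q ^ n = x at *
  split_ifs at a2 <;> omega

theorem iso_C (hn : 0 < n) (b : ε = 1 ∧ q % 4 = 1 ∨ ε = -1 ∧ q % 4 = 3 ∧ n % 2 = 1) :
    Iso ε n q (2 * (n - 1)) := by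
  refine .inr ⟨by omega, by rw [eta_two_mul]; omega, .inr ?_⟩
  obtain ⟨a1, a2⟩ := pow_mod_four (q := q) (n - 1)
  rw [sg_two_mul, tor_neg, mul_neg_one]
  generalize q ^ (n - 1) = x at *
  rcases b with ⟨rfl, b⟩ | ⟨rfl, b⟩
  · rw [tor_neg, pow_one]; omega
  · rw [neg_neg, tor_one, pow_one]; split_ifs at a2 <;> omega

theorem iso_D (hn : 0 < n) (c : n % 2 = 0) (b : q % 4 ≠ 1) : Iso 1 n q (n - 1) := by
  have e : (n - 1) % 2 = 1 := by omega
  refine .inr ⟨by decide, by rw [eta_odd e]; omega, ?_⟩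
  obtain ⟨a1, a2⟩ := pow_mod_four (q := q) (n - 1)
  rw [sg_odd e, mul_one, tor_one, tor_one, pow_one]
  generalize q ^ (n - 1) = x at *
  split_ifs at a2 <;> omega

theorem exists_iso (r : (ε = 0 ∧ 2 ≤ n ∧ (n = 2 → 4 ≤ q)) ∨ ((ε = 1 ∨ ε = -1) ∧ 4 ≤ n)) :
    ∃ i, Iso ε n q i ∧ 3 ≤ i ∧ ¬ (q = 2 ∧ i = 6) := by
  rcases r with ⟨rfl, r, -⟩ | ⟨rfl | rfl, r⟩
  · by_cases c : n % 2 = 1 ∧ q % 4 ≠ 1
    · exact ⟨_, iso_B (by decide) (by decide) c.1 c.2, by omega, by omega⟩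
    · exact ⟨_, iso_A (by decide) (by decide) (by omega), by omega, by omega⟩
  · by_cases c : q % 4 = 1
    · exact ⟨_, iso_C (by omega) (.inl ⟨rfl, c⟩), by omega, by omega⟩
    by_cases c' : n % 2 = 1
    · exact ⟨_, iso_B (by decide) (by decide) c' c, by omega, by omega⟩
    · exact ⟨_, iso_D (by omega) (by omega) c, by omega, by omega⟩
  · by_cases c : q % 4 = 3 ∧ n % 2 = 1
    · exact ⟨_, iso_C (by omega) (.inr ⟨rfl, c⟩), by omega, by omega⟩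
    · exact ⟨_, iso_A (by decide) (by decide) (by omega), by omega, by omega⟩

/-- a prime `≥ 5` of the spectrum that is not joined to `2` -/
theorem LS.exists_r (h : LS ω ε n q p) : ∃ r, r.Prime ∧ 5 ≤ r ∧ r ≠ p ∧ r ∈ ω ∧ 2 * r ∉ ω ∧
    Iso ε n q (eo q r) ∧ Pr q (eo q r) r := by
  obtain ⟨i, h1, h2, h3⟩ := exists_iso h.rng
  obtain ⟨r, hr, e⟩ := zsigmondy (a := q) (n := i) h.two_le (by omega) h3 (by omega)
  have h4 : Pr q i r := pr_pos h.two_le ((dvd_pow_sub_one_iff h.q_pos).2 e.dvd) fun s hs d => by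
    rwa [(Nat.prime_dvd_prime_iff_eq hs hr).1 d]
  obtain ⟨h5, -, h6⟩ := h.iso h1 h4
  obtain ⟨h7, h8, h9⟩ := h6 r hr dvd_rfl
  exact ⟨r, hr, (h4.five_le h2 hr dvd_rfl).1, h7, h5, h9, h8 ▸ h1, h8 ▸ h4⟩

/-- the arithmetic conditions on `(ε, n, q, N)` -/
structure Nm (ε : ℤ) (n q N : ℕ) : Prop where
  rng : (ε = 0 ∧ 2 ≤ n ∧ (n = 2 → 4 ≤ q)) ∨ ((ε = 1 ∨ ε = -1) ∧ 4 ≤ n)
  pp : IsPrimePow q
  mem : N ∈ ords
  h1 : ∀ i, Iso ε n q i → ∀ m, Pr q i m → m ∣ N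
  h3 : ∀ s, s.Prime → s ∣ N → s ∣ q ∨ s = 2 ∨ ∃ j ≤ n, 0 < j ∧
    (Fit ε n j 1 ∧ s ∣ q ^ j - 1 ∨ Fit ε n j (-1) ∧ s ∣ q ^ j + 1)

theorem LS.nm (h : LS ω ε n q p) (hN : N ∈ ords)
    (h1 : ∀ m ∈ ω, (∀ r, r.Prime → r ∣ m → 5 ≤ r ∧ 2 * r ∉ ω) → m ∣ N)
    (h3 : ∀ s, s.Prime → s ∣ N → s ∈ ω) : Nm ε n q N := by
  refine ⟨h.rng, h.pp, hN, fun i hi m hm => ?_, fun s hs d => ?_⟩
  · obtain ⟨a, -, c⟩ := h.iso hi hm
    refine h1 m a fun r hr d => ⟨(hm.five_le ?_ hr d).1, (c r hr d).2.2⟩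
    have := h.rng
    have : 2 ≤ eta i := by rcases hi with ⟨hi, -⟩ | ⟨_, hi, -⟩ <;> omega
    unfold eta at this
    split_ifs at this <;> omega
  by_cases a : s = p
  · exact .inl (a ▸ h.p_dvd)
  by_cases b : s = 2
  · exact .inr (.inl b)
  haveI := Fact.mk hs
  have c : eo q s ≠ 0 := (Homocyc.orderOf_pos_of fun e => by
    obtain ⟨f, -, rfl⟩ := h.hq
    exact a ((Nat.prime_dvd_prime_iff_eq hs h.hp).1 (hs.dvd_of_dvd_pow e))).ne'
  have e := h.pi s (h3 s hs d) hs a b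
  have g := dvd_tor_self h.q_pos hs b c
  refine .inr (.inr ⟨_, e.1, eta_pos c, ?_⟩)
  rcases sg_cases (eo q s) with k | k <;> rw [k] at e g
  exacts [.inl ⟨e, g⟩, .inr ⟨e, g⟩]

/-- the solutions of `Nm`: Tits, J2, He, Ru, J1, HN, Fi22, Suz -/
def resid : List (ℤ × ℕ × ℕ × ℕ) := [(0, 2, 5, 17971200), (0, 2, 7, 604800), (0, 2, 8, 17971200), (0, 2, 13, 4030387200),
  (0, 2, 307, 145926144000), (0, 3, 2, 604800), (0, 3, 3, 17971200), (0, 3, 5, 604800), (0, 3, 11, 273030912000000),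
  (0, 3, 11, 175560), (0, 3, 17, 145926144000), (1, 4, 2, 604800), (1, 4, 3, 17971200), (1, 4, 5, 604800),
  (1, 4, 11, 273030912000000), (1, 4, 11, 175560), (1, 4, 17, 145926144000), (0, 4, 2, 4030387200), (-1, 4, 2, 4030387200),
  (0, 6, 2, 64561751654400), (0, 6, 2, 448345497600), (0, 6, 2, 17971200)]

/-- the check of one triple; `l` lists the primitive parts of the isolated indices -/
def nuB (ε : ℤ) (n q : ℕ) (l : List ℕ) : Bool :=
  ords.all fun N => (l.any fun a => N % a != 0) ||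
    (pl.any fun s => N % s.1 == 0 && q % s.1 != 0 && s.1 != 2 && (List.range' 1 n).all fun j =>
      (!decide (Fit ε n j 1) || (q ^ j - 1) % s.1 != 0) && (!decide (Fit ε n j (-1)) || (q ^ j + 1) % s.1 != 0)) ||
    resid.contains (ε, n, q, N) || q == 18 || q == 57 || q == 87

def isoL (ε : ℤ) (n q : ℕ) : List ℕ := [n, 2 * n, n - 1, 2 * n - 2].filter fun i => decide (Iso ε n q i)

def nuP (ε : ℤ) (n q i : ℕ) : Bool := !decide (Iso ε n q i) || decide (n < 2) || (ε == 0 && n == 2 && decide (q < 4)) ||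
  (ε != 0 && decide (n < 4)) ||
  (((isoL ε n q).all fun j => prB q j (kp q j)) && nuB ε n q ((isoL ε n q).map (kp q)))

theorem nu_all : cand.all (fun x => decide (x.2 < 2) || [0, 1, -1].all fun ε =>
    nuP ε (eta x.1) x.2.toNat x.1 && nuP ε (eta x.1 + 1) x.2.toNat x.1) = true := by decide +kernel

theorem Nm.fin (h : Nm ε n q N) (hi : Iso ε n q i) (hc : (i, (q : ℤ)) ∈ cand) : (ε, n, q, N) ∈ resid := by
  have two := h.pp.two_le
  have r := h.rng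
  have k : nuP ε n q i = true := by
    have := List.all_eq_true.1 nu_all _ hc
    simp only [Bool.or_eq_true, decide_eq_true_eq, List.all_eq_true, Bool.and_eq_true, Int.toNat_natCast] at this
    have := this.resolve_left (by omega) ε (by simp only [List.mem_cons, List.not_mem_nil]; omega)
    rcases hi with ⟨rfl, -⟩ | ⟨-, rfl, -⟩
    exacts [this.1, this.2]
  simp only [nuP, nuB, Bool.or_eq_true, decide_eq_true_eq, Bool.and_eq_true, List.all_eq_true, beq_iff_eq,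
    bne_iff_ne, Bool.not_eq_true', decide_eq_false_iff_not] at k
  obtain (((k | k) | k) | k) | ⟨a, k⟩ := k
  · exact absurd hi k
  · omega
  · omega
  · omega
  have k := k N h.mem
  simp only [List.any_eq_true, Bool.and_eq_true, List.all_eq_true, List.contains_iff_mem, List.mem_range'_1, beq_iff_eq,
    bne_iff_ne, Bool.or_eq_true, Bool.not_eq_true', decide_eq_false_iff_not, List.mem_map] at k
  rcases k with ((((⟨_, ⟨j, hj, rfl⟩, k⟩ | ⟨s, hs, ⟨⟨k1, k2⟩, k4⟩, k3⟩) | k) | rfl) | rfl) | rfl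
  · exact absurd (Nat.mod_eq_zero_of_dvd (h.h1 j (of_decide_eq_true (List.mem_filter.1 hj).2) _
      (pr_of_prB (a j hj)))) k
  · rcases h.h3 s.1 (nuc_pl s hs) (Nat.dvd_of_mod_eq_zero k1) with d | d | ⟨d, d1, d2, d3 | d3⟩
    · exact absurd (Nat.mod_eq_zero_of_dvd d) k2
    · exact absurd d k4
    · exact ((k3 d ⟨d2, by omega⟩).1.elim (· d3.1) (· (Nat.mod_eq_zero_of_dvd d3.2))).elim
    · exact ((k3 d ⟨d2, by omega⟩).2.elim (· d3.1) (· (Nat.mod_eq_zero_of_dvd d3.2))).elim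
  · exact k
  · exact absurd h.pp (by decide +kernel)
  · exact absurd h.pp (nuc_npp (a := 3) (b := 19) (by norm_num) (by norm_num) (by norm_num))
  · exact absurd h.pp (nuc_npp (a := 3) (b := 29) (by norm_num) (by norm_num) (by norm_num))

theorem Nm.resid (h : Nm ε n q N) : (ε, n, q, N) ∈ resid := by
  have two := h.pp.two_le
  obtain ⟨i, hi, h3, -⟩ := exists_iso h.rng
  have k : ∀ m, Pr q i m → m ∣ MM := fun m a => (h.h1 i hi m a).trans (dvd_MM h.mem)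
  refine h.fin hi ?_
  rcases (by omega : i = 3 ∨ i = 4 ∨ i = 6 ∨ 5 ≤ i ∧ i ≠ 6) with rfl | rfl | rfl | ⟨a, b⟩
  exacts [cand3 k, cand4 k, cand6 k, List.mem_append_right _ (mem_big a b (by simpa using two) k)]

end Cfsg.Lib.SPO
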