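import Cfsg.Agent.Lib.KS.Tits

/-!
# S3535: the Tits group has an element of order 16
-/

set_option autoImplicit false

namespace Cfsg.Lib.SPO

open Subgroup Cfsg.Lib.Tits Cfsg.Lib.Calc Cfsg.Lib.KS

theorem tits16 : ∃ g : Lie.TitsGroup, orderOf g = 16 := by
  have h := tits_R8 (E.mf (RW [7]) (RW [0, 2]))
  have m : W [7] * W [0, 2] ∈ TT := U0_le_TT (mul_mem (mem_cl (by simp [U0w])) (mem_cl (by simp [U0w])))
  refine ⟨⟨_, m⟩, (orderOf_coe _).symm.trans (orderOf_eq_prime_pow (p := 2) (n := 3)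
    (E.ne h E.one (by decide +kernel)) ?_)⟩
  rw [show 2 ^ (3 + 1) = 8 + 8 from rfl, pow_add]
  exact E.eq (E.mf h h) E.one (by decide +kernel)

end Cfsg.Lib.SPO
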